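import Mathlib
import Cfsg.Agent.Lib.Helper21.BaerSuzuki

set_option autoImplicit false

namespace Cfsg.Agent.Lib.Helper21

theorem isNilpotent_of_le {G : Type*} [Group G] {H K : Subgroup G} (hK : Group.IsNilpotent K)
    (h : H ≤ K) : Group.IsNilpotent H := by
  obtain ⟨n, hn⟩ := (Subgroup.isNilpotent_iff_lowerCentralSeries K).mp hK
  refine (Subgroup.isNilpotent_iff_lowerCentralSeries H).mpr ⟨n, ?_⟩
  rw [eq_bot_iff, ← hn]
  exact Subgroup.lowerCentralSeries_mono n h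

/-- In a finite nilpotent group, if a normal subset `K` is not contained in the subgroup `M₀`, some element of
`K` outside `M₀` normalizes `K ∩ M₀`. -/
theorem exists_normalizing_of_nilpotent {P : Type*} [Group P] [Finite P]
    (hP : Group.IsNilpotent P) (K : Set P) (hKn : ∀ x ∈ K, ∀ g : P, g * x * g⁻¹ ∈ K) (M₀ : Subgroup P)
    (hne : ∃ x ∈ K, x ∉ M₀) :
    ∃ x ∈ K, x ∉ M₀ ∧ ∀ d ∈ K, d ∈ M₀ → x * d * x⁻¹ ∈ M₀ := by
  let s : Set (Subgroup P) := {M | ∀ k ∈ K, k ∈ M ↔ k ∈ M₀}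
  have hs : s.Nonempty := ⟨M₀, fun _ _ => Iff.rfl⟩
  obtain ⟨M, hM⟩ := (Set.toFinite s).exists_maximal hs
  have hMs : ∀ k ∈ K, k ∈ M ↔ k ∈ M₀ := hM.prop
  have hMtop : M ≠ ⊤ := by
    rintro rfl
    obtain ⟨x, hxK, hx⟩ := hne
    exact hx ((hMs x hxK).mp (Subgroup.mem_top x))
  have hnc : NormalizerCondition P := Group.normalizerCondition_of_isNilpotent
  have hlt : M < Subgroup.normalizer (M : Set P) := hnc M (lt_top_iff_ne_top.mpr hMtop)
  have hnot : Subgroup.normalizer (M : Set P) ∉ s := by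
    intro hmem
    exact absurd (hM.le_of_ge hmem hlt.le) (not_le_of_gt hlt)
  have hnot' : ¬ ∀ k ∈ K, k ∈ Subgroup.normalizer (M : Set P) ↔ k ∈ M₀ := hnot
  simp only [not_forall] at hnot'
  obtain ⟨x, hxK, hx⟩ := hnot'
  have hxN : x ∈ Subgroup.normalizer (M : Set P) := by
    by_contra hxN
    apply hx
    constructor
    · intro h; exact absurd h hxN
    · intro h; exact absurd (hlt.le ((hMs x hxK).mpr h)) hxN
  have hxM₀ : x ∉ M₀ := by
    intro h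
    exact hx ⟨fun _ => h, fun _ => hxN⟩
  refine ⟨x, hxK, hxM₀, ?_⟩
  intro d hdK hd
  have h1 : d ∈ M := (hMs d hdK).mpr hd
  have h2 : x * d * x⁻¹ ∈ M := (Subgroup.mem_normalizer_iff.mp hxN d).mp h1
  exact (hMs _ (hKn d hdK x)).mp h2

/-- proper subgroups generated by elements of `K` -/
def genBy {G : Type*} [Group G] (K : Set G) : Set (Subgroup G) :=
  {E | E ≠ ⊤ ∧ Subgroup.closure (K ∩ (E : Set G)) = E}

theorem closure_inter_mem_genBy {G : Type*} [Group G] (K : Set G) (H : Subgroup G) (hH : H ≠ ⊤) :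
    Subgroup.closure (K ∩ (H : Set G)) ∈ genBy K := by
  have hle : Subgroup.closure (K ∩ (H : Set G)) ≤ H := by
    rw [Subgroup.closure_le]; exact Set.inter_subset_right
  refine ⟨fun h => hH (top_le_iff.mp (h ▸ hle)), ?_⟩
  apply le_antisymm
  · rw [Subgroup.closure_le]; exact Set.inter_subset_right
  · apply Subgroup.closure_mono
    intro x hx
    exact ⟨hx.1, Subgroup.subset_closure hx⟩

/-- A Wielandt zipper style lemma for a normal subset `K` -/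
theorem genBy_maximal_unique {G : Type*} [Group G] [Finite G] (K : Set G)
    (hKn : ∀ x ∈ K, ∀ g : G, g * x * g⁻¹ ∈ K)
    (F1 : ∀ H : Subgroup G, H ≠ ⊤ → Group.IsNilpotent (Subgroup.closure (K ∩ (H : Set G))))
    (F2 : ∀ E : Subgroup G, E.Normal → Group.IsNilpotent E → ∀ k ∈ K, k ∉ E)
    (E₁ E₂ : Subgroup G) (h₁ : Maximal (· ∈ genBy K) E₁) (h₂ : Maximal (· ∈ genBy K) E₂)
    (hne : (K ∩ (E₁ : Set G) ∩ (E₂ : Set G)).Nonempty) : E₁ = E₂ := by
  by_contra hcon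
  let s : Set (Subgroup G × Subgroup G) :=
    {EE | Maximal (· ∈ genBy K) EE.1 ∧ Maximal (· ∈ genBy K) EE.2 ∧
      (K ∩ (EE.1 : Set G) ∩ (EE.2 : Set G)).Nonempty ∧ EE.1 ≠ EE.2}
  have hs : s.Nonempty := ⟨(E₁, E₂), h₁, h₂, hne, hcon⟩
  obtain ⟨⟨P, Q⟩, hPQ, hmax⟩ := Set.exists_max_image s
    (fun EE => (K ∩ (EE.1 : Set G) ∩ (EE.2 : Set G)).ncard) (Set.toFinite s) hs
  obtain ⟨hP, hQ, hPQne, hPQ'⟩ := hPQ
  simp only at hP hQ hPQne hPQ'
  set D : Set G := K ∩ (P : Set G) ∩ (Q : Set G) with hD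
  have hnil : ∀ E : Subgroup G, Maximal (· ∈ genBy K) E → Group.IsNilpotent E := by
    intro E hE
    have := F1 E hE.prop.1
    rwa [hE.prop.2] at this
  have key : ∀ (P Q : Subgroup G), Maximal (· ∈ genBy K) P → Maximal (· ∈ genBy K) Q → P ≠ Q →
      ∃ x ∈ K, x ∈ P ∧ x ∉ Q ∧ ∀ d ∈ K, d ∈ P → d ∈ Q → x * d * x⁻¹ ∈ Q := by
    intro P Q hP hQ hne
    have hex : ∃ x ∈ K, x ∈ P ∧ x ∉ Q := by
      by_contra hno
      push Not at hno
      apply hne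
      apply hP.eq_of_le hQ.prop
      rw [← hP.prop.2, Subgroup.closure_le]
      rintro x ⟨hxK, hxP⟩
      exact hno x hxK hxP
    obtain ⟨x₀, hx₀K, hx₀P, hx₀Q⟩ := hex
    obtain ⟨x, hxK, hxQ, hx⟩ := exists_normalizing_of_nilpotent (hnil P hP)
      {x : P | (x : G) ∈ K} (fun x hx g => hKn x hx g)
      (Q.subgroupOf P) ⟨⟨x₀, hx₀P⟩, hx₀K, hx₀Q⟩
    refine ⟨x, hxK, x.2, hxQ, ?_⟩
    intro d hdK hdP hdQ
    exact hx ⟨d, hdP⟩ hdK hdQ
  obtain ⟨x, hxK, hxP, hxQ, hx⟩ := key P Q hP hQ hPQ'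
  obtain ⟨y, hyK, hyQ, hyP, hy⟩ := key Q P hQ hP hPQ'.symm
  have hxS : x ∈ conjStab D := by
    rintro d ⟨⟨hdK, hdP⟩, hdQ⟩
    exact ⟨⟨hKn d hdK x, Subgroup.mul_mem _ (Subgroup.mul_mem _ hxP hdP) (Subgroup.inv_mem _ hxP)⟩,
      hx d hdK hdP hdQ⟩
  have hyS : y ∈ conjStab D := by
    rintro d ⟨⟨hdK, hdP⟩, hdQ⟩
    exact ⟨⟨hKn d hdK y, hy d hdK hdQ hdP⟩,
      Subgroup.mul_mem _ (Subgroup.mul_mem _ hyQ hdQ) (Subgroup.inv_mem _ hyQ)⟩
  set T := Subgroup.normalizer ((Subgroup.closure D : Subgroup G) : Set G) with hT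
  have hDP : Subgroup.closure D ≤ P := by
    rw [Subgroup.closure_le]
    rintro d ⟨⟨_, hdP⟩, _⟩
    exact hdP
  have hTtop : T ≠ ⊤ := by
    intro htop
    have hnorm : (Subgroup.closure D).Normal := Subgroup.normalizer_eq_top_iff.mp htop
    obtain ⟨d, hd⟩ := hPQne
    exact F2 _ hnorm (isNilpotent_of_le (hnil P hP) hDP) d hd.1.1 (Subgroup.subset_closure hd)
  obtain ⟨R, hTR, hR⟩ := (Set.toFinite (genBy K)).exists_le_maximal (closure_inter_mem_genBy K T hTtop)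
  have hxR : x ∈ R := hTR (Subgroup.subset_closure ⟨hxK, conjStab_le_normalizer D hxS⟩)
  have hyR : y ∈ R := hTR (Subgroup.subset_closure ⟨hyK, conjStab_le_normalizer D hyS⟩)
  have hDR : ∀ d ∈ D, d ∈ R := fun d hd =>
    hTR (Subgroup.subset_closure ⟨hd.1.1, Subgroup.le_normalizer (Subgroup.subset_closure hd)⟩)
  have h1 : P = R := by
    by_contra hne
    have hle := hmax (P, R) ⟨hP, hR, ⟨x, ⟨hxK, hxP⟩, hxR⟩, hne⟩
    simp only at hle
    have hlt : D.ncard < (K ∩ (P : Set G) ∩ (R : Set G)).ncard := by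
      apply Set.ncard_lt_ncard _ (Set.toFinite _)
      refine ⟨?_, ?_⟩
      · intro d hd
        exact ⟨hd.1, hDR d hd⟩
      · intro hsub
        exact hxQ (hsub ⟨⟨hxK, hxP⟩, hxR⟩).2
    omega
  have h2 : Q = R := by
    by_contra hne
    have hle := hmax (Q, R) ⟨hQ, hR, ⟨y, ⟨hyK, hyQ⟩, hyR⟩, hne⟩
    simp only at hle
    have hlt : D.ncard < (K ∩ (Q : Set G) ∩ (R : Set G)).ncard := by
      apply Set.ncard_lt_ncard _ (Set.toFinite _)
      refine ⟨?_, ?_⟩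
      · intro d hd
        exact ⟨⟨hd.1.1, hd.2⟩, hDR d hd⟩
      · intro hsub
        exact hyP (hsub ⟨⟨hyK, hyQ⟩, hyR⟩).1.2
    omega
  exact hPQ' (h1.trans h2.symm)

end Cfsg.Agent.Lib.Helper21
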