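import Mathlib
import Cfsg.Prelude.Def_Solvable
import Cfsg.Agent.Lib.Helper22.FittingSub
import Cfsg.Agent.Lib.Helper21.Zipper

set_option autoImplicit false

namespace Cfsg.Agent.Lib.Helper21

/-- the iterated commutator `[x, g, …, g]` -/
def engelSeq {G : Type*} [Group G] (g : G) (n : ℕ) (x : G) : G :=
  (List.replicate n g).foldl (fun a b => a * b * a⁻¹ * b⁻¹) x

theorem engelSeq_zero {G : Type*} [Group G] (g x : G) : engelSeq g 0 x = x := rfl

theorem engelSeq_succ {G : Type*} [Group G] (g x : G) (n : ℕ) :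
    engelSeq g (n + 1) x = engelSeq g n (x * g * x⁻¹ * g⁻¹) := rfl

theorem map_engelSeq {G H : Type*} [Group G] [Group H] (f : G →* H) (g : G) (n : ℕ) (x : G) :
    f (engelSeq g n x) = engelSeq (f g) n (f x) := by
  induction n generalizing x with
  | zero => rfl
  | succ n ih => rw [engelSeq_succ, engelSeq_succ, ih]; simp

/-- left Engel elements -/
def IsLeftEngel {G : Type*} [Group G] (g : G) : Prop := ∀ x : G, ∃ n : ℕ, engelSeq g n x = 1

theorem IsLeftEngel.conj {G : Type*} [Group G] {g : G} (h : IsLeftEngel g) (a : G) :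
    IsLeftEngel (a * g * a⁻¹) := by
  intro x
  obtain ⟨n, hn⟩ := h (a⁻¹ * x * a)
  refine ⟨n, ?_⟩
  have := map_engelSeq (MulAut.conj a).toMonoidHom g n (a⁻¹ * x * a)
  rw [hn, map_one] at this
  have e1 : (MulAut.conj a).toMonoidHom g = a * g * a⁻¹ := rfl
  have e2 : (MulAut.conj a).toMonoidHom (a⁻¹ * x * a) = x := by
    show a * (a⁻¹ * x * a) * a⁻¹ = x
    group
  rw [e1, e2] at this
  exact this.symm

theorem IsLeftEngel.subgroup {G : Type*} [Group G] {g : G} (h : IsLeftEngel g) (H : Subgroup G)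
    (hg : g ∈ H) : IsLeftEngel (⟨g, hg⟩ : H) := by
  intro x
  obtain ⟨n, hn⟩ := h x
  refine ⟨n, ?_⟩
  apply H.subtype_injective
  rw [map_engelSeq, map_one]
  exact hn

theorem isLeftEngel_of_mem_fitting {G : Type*} [Group G] [Finite G] (g : G)
    (hg : g ∈ Cfsg.fittingSubgroup G) : IsLeftEngel g := by
  set F := Cfsg.fittingSubgroup G with hF
  have hFn : F.Normal := Cfsg.Agent.Lib.Helper22.fittingSubgroup_normal
  obtain ⟨c, hc⟩ := (Subgroup.isNilpotent_iff_lowerCentralSeries F).mp
    Cfsg.Agent.Lib.Helper22.fittingSubgroup_isNilpotent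
  have key : ∀ (n k : ℕ) (a : G), a ∈ F.lowerCentralSeries k →
      engelSeq g n a ∈ F.lowerCentralSeries (k + n) := by
    intro n
    induction n with
    | zero => intro k a ha; exact ha
    | succ n ih =>
      intro k a ha
      rw [engelSeq_succ]
      have h1 : a * g * a⁻¹ * g⁻¹ ∈ F.lowerCentralSeries (k + 1) :=
        Subgroup.commutator_mem_commutator ha hg
      have := ih (k + 1) _ h1
      rwa [show k + 1 + n = k + (n + 1) by ring] at this
  intro x
  refine ⟨c + 1, ?_⟩
  rw [engelSeq_succ]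
  have h0 : x * g * x⁻¹ * g⁻¹ ∈ F.lowerCentralSeries 0 :=
    F.mul_mem (hFn.conj_mem g hg x) (F.inv_mem hg)
  have := key c 0 _ h0
  rw [zero_add, hc, Subgroup.mem_bot] at this
  exact this

theorem mem_fitting_of_isLeftEngel_aux.{u} : ∀ (n : ℕ) (G : Type u) [Group G] [Finite G],
    Nat.card G = n → ∀ g : G, IsLeftEngel g → g ∈ Cfsg.fittingSubgroup G := by
  intro n
  induction n using Nat.strong_induction_on with
  | _ n ih =>
    intro G _ _ hcard g hg
    by_contra hgF
    let K : Set G := {k | ∃ a : G, k = a * g * a⁻¹}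
    have hgK : g ∈ K := ⟨1, by simp⟩
    have hKn : ∀ x ∈ K, ∀ b : G, b * x * b⁻¹ ∈ K := by
      rintro _ ⟨a, rfl⟩ b
      exact ⟨b * a, by simp [mul_assoc]⟩
    have hKE : ∀ k ∈ K, IsLeftEngel k := by
      rintro _ ⟨a, rfl⟩
      exact hg.conj a
    have F1 : ∀ H : Subgroup G, H ≠ ⊤ → Group.IsNilpotent (Subgroup.closure (K ∩ (H : Set G))) := by
      intro H hH
      have hlt : Nat.card H < n := by
        by_contra hge
        push Not at hge
        exact hH (Subgroup.eq_top_of_le_card H (hcard ▸ hge))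
      haveI : Group.IsNilpotent (Cfsg.fittingSubgroup H) :=
        Cfsg.Agent.Lib.Helper22.fittingSubgroup_isNilpotent
      have hnil : Group.IsNilpotent ((Cfsg.fittingSubgroup H).map H.subtype) :=
        Group.nilpotent_of_mulEquiv
          ((Cfsg.fittingSubgroup H).equivMapOfInjective H.subtype H.subtype_injective)
      apply isNilpotent_of_le hnil
      rw [Subgroup.closure_le]
      rintro k ⟨hkK, hkH⟩
      exact ⟨⟨k, hkH⟩, ih _ hlt H rfl _ ((hKE k hkK).subgroup H hkH), rfl⟩
    have F2 : ∀ E : Subgroup G, E.Normal → Group.IsNilpotent E → ∀ k ∈ K, k ∉ E := by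
      rintro E hEn hE _ ⟨a, rfl⟩ hk
      apply hgF
      apply Cfsg.Agent.Lib.Helper22.le_fittingSubgroup E hEn hE
      have := hEn.conj_mem _ hk a⁻¹
      simpa [mul_assoc] using this
    have huniq := genBy_maximal_unique K hKn F1 F2
    -- a maximal member containing `g`
    have hZ : Subgroup.zpowers g ≠ ⊤ := by
      intro htop
      have h1 : Group.IsNilpotent (Subgroup.zpowers g) := by
        letI : CommGroup (Subgroup.zpowers g) :=
          { (inferInstance : Group (Subgroup.zpowers g)) with mul_comm := mul_comm' }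
        exact CommGroup.isNilpotent
      rw [htop] at h1
      exact F2 ⊤ inferInstance h1 g hgK (Subgroup.mem_top g)
    obtain ⟨E₀, hE₀le, hE₀⟩ := (Set.toFinite (genBy K)).exists_le_maximal
      (closure_inter_mem_genBy K _ hZ)
    have hgE₀ : g ∈ E₀ := hE₀le (Subgroup.subset_closure ⟨hgK, Subgroup.mem_zpowers g⟩)
    have hE₀nil : Group.IsNilpotent E₀ := by
      have := F1 E₀ hE₀.prop.1
      rwa [hE₀.prop.2] at this
    have U : ∀ H : Subgroup G, H ≠ ⊤ → ∀ k ∈ K, k ∈ H → k ∈ E₀ → ∀ d ∈ K, d ∈ H → d ∈ E₀ := by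
      intro H hH k hkK hkH hkE d hdK hdH
      obtain ⟨E', hle, hE'⟩ := (Set.toFinite (genBy K)).exists_le_maximal
        (closure_inter_mem_genBy K H hH)
      have : E' = E₀ := huniq E' E₀ hE' hE₀ ⟨k, ⟨hkK, hle (Subgroup.subset_closure ⟨hkK, hkH⟩)⟩, hkE⟩
      rw [← this]
      exact hle (Subgroup.subset_closure ⟨hdK, hdH⟩)
    set T := Subgroup.normalizer (E₀ : Set G) with hT
    have hTtop : T ≠ ⊤ := by
      intro htop
      exact F2 E₀ (Subgroup.normalizer_eq_top_iff.mp htop) hE₀nil g hgK hgE₀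
    have hTE : ∀ d ∈ K, d ∈ T → d ∈ E₀ := U T hTtop g hgK (Subgroup.le_normalizer hgE₀) hgE₀
    have hstab : conjStab (K ∩ (E₀ : Set G)) ≤ T := by
      have := conjStab_le_normalizer (K ∩ (E₀ : Set G))
      rwa [hE₀.prop.2] at this
    have main : ∀ (m : ℕ) (x : G), engelSeq g m x = 1 → x * g * x⁻¹ ∈ E₀ := by
      intro m
      induction m with
      | zero =>
        intro x hx
        rw [engelSeq_zero] at hx
        rw [hx]; simpa using hgE₀
      | succ m ihm =>
        intro x hx
        rw [engelSeq_succ] at hx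
        have h1 := ihm _ hx
        set c := x * g * x⁻¹ with hc
        have hcK : c ∈ K := ⟨x, rfl⟩
        have h2 : c * g * c⁻¹ ∈ E₀ := by
          have : c * g⁻¹ * g * (c * g⁻¹)⁻¹ = c * g * c⁻¹ := by group
          rwa [this] at h1
        apply hTE c hcK
        apply hstab
        set H := E₀.map (MulAut.conj c).toMonoidHom with hH
        have hHtop : H ≠ ⊤ := by
          intro htop
          apply hE₀.prop.1
          rw [eq_top_iff]
          intro z _
          have hz : c * z * c⁻¹ ∈ H := htop ▸ Subgroup.mem_top _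
          obtain ⟨w, hw, hwz⟩ := hz
          have : c * w * c⁻¹ = c * z * c⁻¹ := hwz
          have : w = z := by simpa using this
          rwa [← this]
        rintro d ⟨hdK, hdE⟩
        refine ⟨hKn d hdK c, ?_⟩
        exact U H hHtop (c * g * c⁻¹) (hKn g hgK c) ⟨g, hgE₀, rfl⟩ h2 _ (hKn d hdK c) ⟨d, hdE, rfl⟩
    -- hence all conjugates lie in `E₀`
    have hall : K ⊆ (E₀ : Set G) := by
      rintro _ ⟨a, rfl⟩
      obtain ⟨m, hm⟩ := hg a
      exact main m a hm
    apply hTtop
    rw [eq_top_iff]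
    intro z _
    apply hstab
    rintro d ⟨hdK, _⟩
    exact ⟨hKn d hdK z, hall (hKn d hdK z)⟩

/-- **Baer**: left Engel elements of a finite group lie in the Fitting subgroup. -/
theorem mem_fitting_of_isLeftEngel {G : Type*} [Group G] [Finite G] (g : G) (hg : IsLeftEngel g) :
    g ∈ Cfsg.fittingSubgroup G :=
  mem_fitting_of_isLeftEngel_aux _ G rfl g hg

end Cfsg.Agent.Lib.Helper21
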