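import Mathlib
import Cfsg.Prelude.Def_Transfer

/-!
# Groups in which abelian subgroups of equal order are conjugate (helper21)
-/

set_option autoImplicit false
set_option linter.style.haveILetI false

namespace Cfsg.Agent.Lib.Helper21

open Subgroup

variable {G : Type*} [Group G]

/-- Two commuting elements of order `p`, the second outside the cyclic group generated by the
first, generate an elementary abelian group of order `p ^ 2`. -/
theorem exists_elemAb_sq {p : ℕ} [Fact p.Prime] {z c : G} (hz : orderOf z = p) (hc : orderOf c = p)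
    (hcomm : Commute z c) (hcz : c ∉ zpowers z) :
    ∃ E : Subgroup G, IsMulCommutative E ∧ Nat.card E = p ^ 2 ∧ (∀ e ∈ E, e ^ p = 1) ∧
      z ∈ E ∧ c ∈ E := by
  have hp : p.Prime := Fact.out
  have hcm : ∀ (m : zpowers z) (n : zpowers c), Commute ((zpowers z).subtype m)
      ((zpowers c).subtype n) := by
    rintro ⟨_, i, rfl⟩ ⟨_, j, rfl⟩
    exact (hcomm.zpow_zpow i j)
  let f := MonoidHom.noncommCoprod (zpowers z).subtype (zpowers c).subtype hcm
  have hdisj : Disjoint (zpowers z) (zpowers c) := by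
    rw [disjoint_iff_inf_le]
    intro x hx
    by_contra hx1
    have hx1' : x ≠ 1 := fun h => hx1 (by rw [h]; exact one_mem _)
    -- `x` generates `zpowers c`
    have h1 : zpowers x = zpowers c := by
      have hle : zpowers x ≤ zpowers c := zpowers_le.2 hx.2
      have hcard : Nat.card (zpowers c) = p := by rw [Nat.card_zpowers, hc]
      have h2 : Nat.card (zpowers x) ∣ p := hcard ▸ card_dvd_of_le hle
      rcases (Nat.dvd_prime hp).1 h2 with h3 | h3
      · exfalso
        rw [Nat.card_zpowers, orderOf_eq_one_iff] at h3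
        exact hx1' h3
      · haveI : Finite (zpowers c) := Nat.finite_of_card_ne_zero (by rw [hcard]; exact hp.ne_zero)
        exact eq_of_le_of_card_ge hle (by rw [hcard, h3])
    apply hcz
    have : c ∈ zpowers x := h1 ▸ mem_zpowers c
    exact (zpowers_le.2 hx.1) this
  have hinj : Function.Injective f := by
    rw [MonoidHom.noncommCoprod_injective]
    refine ⟨subtype_injective _, subtype_injective _, ?_⟩
    rwa [range_subtype, range_subtype]
  refine ⟨f.range, ?_, ?_, ?_, ?_, ?_⟩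
  · refine ⟨⟨?_⟩⟩
    rintro ⟨_, ⟨a1, a2⟩, rfl⟩ ⟨_, ⟨b1, b2⟩, rfl⟩
    apply Subtype.ext
    show f (a1, a2) * f (b1, b2) = f (b1, b2) * f (a1, a2)
    rw [← map_mul, ← map_mul]
    congr 1
    obtain ⟨_, i, rfl⟩ := a1
    obtain ⟨_, j, rfl⟩ := a2
    obtain ⟨_, k, rfl⟩ := b1
    obtain ⟨_, l, rfl⟩ := b2
    apply Prod.ext
    · apply Subtype.ext
      show z ^ i * z ^ k = z ^ k * z ^ i
      rw [← zpow_add, ← zpow_add, add_comm]
    · apply Subtype.ext
      show c ^ j * c ^ l = c ^ l * c ^ j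
      rw [← zpow_add, ← zpow_add, add_comm]
  · rw [← Nat.card_congr (MonoidHom.ofInjective hinj).toEquiv, Nat.card_prod, Nat.card_zpowers,
      Nat.card_zpowers, hz, hc, sq]
  · rintro _ ⟨⟨⟨_, i, rfl⟩, ⟨_, j, rfl⟩⟩, rfl⟩
    show (z ^ i * c ^ j) ^ p = 1
    rw [(hcomm.zpow_zpow i j).mul_pow, ← zpow_natCast, ← zpow_natCast, ← zpow_mul, ← zpow_mul,
      mul_comm i, mul_comm j, zpow_mul, zpow_mul, zpow_natCast, zpow_natCast, ← hz,
      pow_orderOf_eq_one, hz, ← hc, pow_orderOf_eq_one]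
    simp
  · exact ⟨(⟨z, mem_zpowers z⟩, 1), by simp [f]⟩
  · exact ⟨(1, ⟨c, mem_zpowers c⟩), by simp [f]⟩

/-- If abelian subgroups of order `p ^ 2` are conjugate and one of them is elementary, no
`p`-element has order `p ^ 2` or more. -/
theorem pow_eq_one_of_elemAb_sq {p : ℕ} [Fact p.Prime]
    (hB : ∀ A B : Subgroup G, IsMulCommutative ↥A → IsMulCommutative ↥B →
      Nat.card ↥A = Nat.card ↥B → ∃ g : G, B = A.map (MulAut.conj g).toMonoidHom)
    (E : Subgroup G) (hE1 : IsMulCommutative E) (hE2 : Nat.card E = p ^ 2)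
    (hE3 : ∀ e ∈ E, e ^ p = 1) (x : G) (k : ℕ) (hx : x ^ p ^ k = 1) : x ^ p = 1 := by
  have hp : p.Prime := Fact.out
  obtain ⟨j, -, hj⟩ := (Nat.dvd_prime_pow hp).1 (orderOf_dvd_of_pow_eq_one hx)
  by_cases hj1 : j ≤ 1
  · rw [← orderOf_dvd_iff_pow_eq_one, hj]
    calc p ^ j ∣ p ^ 1 := pow_dvd_pow p hj1
      _ = p := pow_one p
  exfalso
  set y := x ^ p ^ (j - 2) with hy
  have hyo : orderOf y = p ^ 2 := by
    rw [hy, orderOf_pow_of_dvd (pow_ne_zero _ hp.ne_zero) (hj ▸ pow_dvd_pow p (by omega)), hj,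
      Nat.pow_div (by omega) hp.pos]
    congr 1
    omega
  have hcy : IsMulCommutative (zpowers y) := by
    refine ⟨⟨?_⟩⟩
    rintro ⟨_, i, rfl⟩ ⟨_, l, rfl⟩
    apply Subtype.ext
    show y ^ i * y ^ l = y ^ l * y ^ i
    rw [← zpow_add, ← zpow_add, add_comm]
  obtain ⟨g, hg⟩ := hB E (zpowers y) hE1 hcy (by rw [hE2, Nat.card_zpowers, hyo])
  have hmem : y ∈ E.map (MulAut.conj g).toMonoidHom := hg ▸ mem_zpowers y
  obtain ⟨e, he, hey⟩ := hmem
  have h1 : y ^ p = 1 := by
    rw [← hey, ← map_pow, hE3 e he, map_one]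
  have h2 := orderOf_dvd_of_pow_eq_one h1
  rw [hyo] at h2
  have h3 := Nat.le_of_dvd hp.pos h2
  have h4 : p < p ^ 2 := by
    calc p = p ^ 1 := (pow_one p).symm
      _ < p ^ 2 := Nat.pow_lt_pow_right hp.one_lt (by norm_num)
  omega

/-- The dichotomy for a Sylow subgroup. -/
theorem unique_or_exponent [Finite G] {p : ℕ} [Fact p.Prime]
    (hB : ∀ A B : Subgroup G, IsMulCommutative ↥A → IsMulCommutative ↥B →
      Nat.card ↥A = Nat.card ↥B → ∃ g : G, B = A.map (MulAut.conj g).toMonoidHom)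
    (P : Subgroup G) (hP : IsPGroup p P) :
    (∀ H K : Subgroup P, Nat.card H = p → Nat.card K = p → H = K) ∨ ∀ x ∈ P, x ^ p = 1 := by
  have hp : p.Prime := Fact.out
  by_cases hu : ∀ H K : Subgroup P, Nat.card H = p → Nat.card K = p → H = K
  · exact Or.inl hu
  right
  push Not at hu
  obtain ⟨H, K, hH, hK, hne⟩ := hu
  -- a central element of order `p`
  haveI : Nontrivial P := by
    by_contra hcon
    rw [not_nontrivial_iff_subsingleton] at hcon
    have : Nat.card H = 1 := Nat.card_eq_one_iff_unique.2 ⟨inferInstance, ⟨1⟩⟩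
    rw [hH] at this
    exact hp.one_lt.ne' this
  have hcen : p ∣ Nat.card (center P) := by
    haveI := hP.center_nontrivial
    obtain ⟨n, hn0, hn⟩ := (hP.to_subgroup (center P)).exists_card_eq.imp
      (fun n hn => (⟨by
        rintro rfl
        rw [pow_zero] at hn
        exact (Finite.one_lt_card (α := center P)).ne' hn, hn⟩ : n ≠ 0 ∧ _))
    rw [hn]
    exact dvd_pow_self p hn0
  obtain ⟨z, hz⟩ := exists_prime_orderOf_dvd_card' p hcen
  -- generators of `H` and `K`
  have hgen : ∀ L : Subgroup P, Nat.card L = p → ∃ a : P, orderOf a = p ∧ zpowers a = L := by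
    intro L hL
    haveI : IsCyclic L := isCyclic_of_prime_card hL
    obtain ⟨a, ha⟩ := IsCyclic.exists_generator (α := L)
    have h1 : orderOf a = p := by rw [orderOf_eq_card_of_forall_mem_zpowers ha, hL]
    refine ⟨a.1, by rw [← h1]; exact (Subgroup.orderOf_coe a), ?_⟩
    apply le_antisymm
    · exact zpowers_le.2 a.2
    · intro l hl
      obtain ⟨i, hi⟩ := ha ⟨l, hl⟩
      exact ⟨i, by simpa using congrArg Subtype.val hi⟩
  obtain ⟨a, ha, haH⟩ := hgen H hH
  obtain ⟨b, hb, hbK⟩ := hgen K hK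
  have hz' : orderOf (z : P) = p := by rw [← hz]; exact Subgroup.orderOf_coe z
  -- one of them is outside `⟨z⟩`
  have hex : ∃ c : P, orderOf c = p ∧ c ∉ zpowers (z : P) := by
    by_contra hcon
    push Not at hcon
    have hZ : Nat.card (zpowers (z : P)) = p := by rw [Nat.card_zpowers, hz']
    have h1 : H = zpowers (z : P) := by
      rw [← haH]
      exact eq_of_le_of_card_ge (zpowers_le.2 (hcon a ha)) (by rw [hZ, Nat.card_zpowers, ha])
    have h2 : K = zpowers (z : P) := by
      rw [← hbK]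
      exact eq_of_le_of_card_ge (zpowers_le.2 (hcon b hb)) (by rw [hZ, Nat.card_zpowers, hb])
    exact hne (h1.trans h2.symm)
  obtain ⟨c, hc, hcz⟩ := hex
  have hcomm : Commute ((z : P) : G) (c : G) := by
    have := mem_center_iff.1 z.2 c
    exact (congrArg Subtype.val this).symm
  have hcz' : (c : G) ∉ zpowers ((z : P) : G) := by
    rintro ⟨i, hi⟩
    apply hcz
    exact ⟨i, Subtype.ext (by simpa using hi)⟩
  obtain ⟨E, hE1, hE2, hE3, -, -⟩ := exists_elemAb_sq (p := p) (z := ((z : P) : G)) (c := (c : G))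
    (by rw [← hz']; exact Subgroup.orderOf_coe (z : P))
    (by rw [← hc]; exact Subgroup.orderOf_coe c) hcomm hcz'
  intro x hx
  obtain ⟨k, hk⟩ := hP ⟨x, hx⟩
  exact pow_eq_one_of_elemAb_sq hB E hE1 hE2 hE3 x k (by simpa using congrArg Subtype.val hk)

end Cfsg.Agent.Lib.Helper21
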