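import Mathlib

set_option autoImplicit false

namespace Cfsg.Agent.Lib.Helper21

open Pointwise

theorem dvd_card_of_forall_dvd_index_stabilizer {G Y : Type*} [Group G] [MulAction G Y] [Finite Y]
    (d : ℕ) (h : ∀ y : Y, d ∣ (MulAction.stabilizer G y).index) : d ∣ Nat.card Y := by
  classical
  haveI : Fintype (MulAction.orbitRel.Quotient G Y) := Fintype.ofFinite _
  rw [Nat.card_congr (MulAction.selfEquivSigmaOrbits' G Y), Nat.card_sigma]
  apply Finset.dvd_sum
  intro ω _
  rw [MulAction.orbitRel.Quotient.orbit_eq_orbit_out ω Quotient.out_eq', Nat.card_coe_set_eq,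
    ← MulAction.index_stabilizer]
  exact h _

theorem card_stabilizer_dvd_card_finset {G : Type*} [Group G] [DecidableEq G] (X : Finset G) :
    Nat.card (MulAction.stabilizer G X) ∣ X.card := by
  set S := MulAction.stabilizer G X with hS
  let Y : SubMulAction S G :=
    { carrier := (X : Set G)
      smul_mem' := by
        intro s x hx
        have h1 : (s : G) • X = X := s.2
        have h2 : (s : G) • x ∈ (s : G) • X := Finset.smul_mem_smul_finset hx
        rw [h1] at h2
        exact h2 }
  haveI : Finite Y := Finite.of_equiv (X : Set G) (Equiv.refl _)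
  have hY : Nat.card Y = X.card := by
    have : Nat.card Y = Nat.card (X : Set G) := rfl
    rw [this, Nat.card_coe_set_eq, Set.ncard_coe_finset]
  rw [← hY]
  apply dvd_card_of_forall_dvd_index_stabilizer (G := S)
  intro y
  have : MulAction.stabilizer S y = ⊥ := by
    rw [eq_bot_iff]
    intro s hs
    rw [SubMulAction.stabilizer_of_subMul, MulAction.mem_stabilizer_iff] at hs
    have h1 : (s : G) * (y : G) = y := hs
    rw [Subgroup.mem_bot]
    exact Subtype.ext (mul_eq_right.mp h1)
  rw [this, Subgroup.index_bot]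

/-- the right coset `H x` as a finset -/
noncomputable def rcoset {G : Type*} [Group G] [Fintype G] (H : Subgroup G) (x : G) : Finset G :=
  haveI : DecidablePred (fun y => y * x⁻¹ ∈ H) := Classical.decPred _
  Finset.univ.filter (fun y => y * x⁻¹ ∈ H)

theorem mem_rcoset {G : Type*} [Group G] [Fintype G] (H : Subgroup G) (x y : G) :
    y ∈ rcoset H x ↔ y * x⁻¹ ∈ H := by
  simp [rcoset]

theorem card_rcoset {G : Type*} [Group G] [Fintype G] (H : Subgroup G) (x : G) :
    (rcoset H x).card = Nat.card H := by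
  classical
  rw [rcoset, ← Fintype.card_subtype, ← Nat.card_eq_fintype_card]
  exact Nat.card_congr ((Equiv.mulRight x⁻¹).subtypeEquiv (fun y => Iff.rfl))

theorem stabilizer_rcoset {G : Type*} [Group G] [Fintype G] [DecidableEq G] (H : Subgroup G)
    (x : G) : MulAction.stabilizer G (rcoset H x) = H := by
  ext g
  rw [MulAction.mem_stabilizer_finset]
  constructor
  · intro h
    have := (h x).mpr (by rw [mem_rcoset]; simp)
    rw [mem_rcoset] at this
    simpa using this
  · intro hg b
    rw [mem_rcoset, mem_rcoset, smul_eq_mul, mul_assoc]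
    exact H.mul_mem_cancel_left hg

theorem eq_rcoset_of_card_stabilizer {G : Type*} [Group G] [Fintype G] [DecidableEq G] (X : Finset G)
    (hX : Nat.card (MulAction.stabilizer G X) = X.card) (x : G) (hx : x ∈ X) :
    rcoset (MulAction.stabilizer G X) x = X := by
  apply Finset.eq_of_subset_of_card_le
  · intro y hy
    rw [mem_rcoset] at hy
    have h1 : (y * x⁻¹) • X = X := hy
    have h2 : (y * x⁻¹) • x ∈ (y * x⁻¹) • X := Finset.smul_mem_smul_finset hx
    rw [h1] at h2
    simpa using h2
  · rw [card_rcoset, hX]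

theorem choose_pred_modEq_one (p : ℕ) [hp : Fact p.Prime] (β m : ℕ) (hm : 0 < m) :
    (p ^ β * m - 1).choose (p ^ β - 1) ≡ 1 [MOD p] := by
  induction β with
  | zero => simp [Nat.ModEq]
  | succ β ih =>
    have hp2 : 2 ≤ p := hp.out.two_le
    have hpos : 0 < p ^ β * m := Nat.mul_pos (pow_pos hp.out.pos β) hm
    have hpos' : 0 < p ^ β := pow_pos hp.out.pos β
    obtain ⟨q, hq⟩ : ∃ q, p ^ β * m = q + 1 := ⟨p ^ β * m - 1, by omega⟩
    obtain ⟨r, hr⟩ : ∃ r, p ^ β = r + 1 := ⟨p ^ β - 1, by omega⟩
    have e1 : p ^ (β + 1) * m - 1 = p * q + (p - 1) := by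
      have : p ^ (β + 1) * m = p * q + p := by
        rw [pow_succ, mul_comm (p ^ β) p, mul_assoc, hq]; ring
      omega
    have e2 : p ^ (β + 1) - 1 = p * r + (p - 1) := by
      have : p ^ (β + 1) = p * r + p := by
        rw [pow_succ, mul_comm (p ^ β) p, hr]; ring
      omega
    have hlt : p - 1 < p := by omega
    have L := Choose.choose_modEq_choose_mod_mul_choose_div_nat (n := p * q + (p - 1))
      (k := p * r + (p - 1)) (p := p)
    rw [Nat.mul_add_mod, Nat.mul_add_mod, Nat.mod_eq_of_lt hlt, Nat.choose_self, one_mul,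
      Nat.mul_add_div hp.out.pos, Nat.mul_add_div hp.out.pos, Nat.div_eq_of_lt hlt, add_zero, add_zero] at L
    rw [e1, e2]
    refine L.trans ?_
    have e3 : q = p ^ β * m - 1 := by omega
    have e4 : r = p ^ β - 1 := by omega
    rw [e3, e4]
    exact ih

/-- **Frobenius**: the number of subgroups of order `p ^ β` is `≡ 1 mod p`. -/
theorem card_subgroups_prime_pow_modEq_one {G : Type*} [Group G] [Finite G] (p β : ℕ)
    [hp : Fact p.Prime] (hdiv : p ^ β ∣ Nat.card G) :
    Nat.card {H : Subgroup G // Nat.card H = p ^ β} ≡ 1 [MOD p] := by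
  classical
  haveI : Fintype G := Fintype.ofFinite G
  obtain ⟨m, hm⟩ := hdiv
  have hm0 : 0 < m := by
    rcases Nat.eq_zero_or_pos m with h | h
    · rw [h, mul_zero] at hm
      exact absurd hm Nat.card_pos.ne'
    · exact h
  set k := p ^ β with hk
  have hk0 : 0 < k := pow_pos hp.out.pos β
  let Ω : Finset (Finset G) := Finset.powersetCard k Finset.univ
  let Ω₁ := Ω.filter (fun X => Nat.card (MulAction.stabilizer G X) = k)
  let Ω₂ := Ω.filter (fun X => ¬ Nat.card (MulAction.stabilizer G X) = k)
  have hsplit : Ω₁.card + Ω₂.card = (Nat.card G).choose k := by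
    rw [Finset.card_filter_add_card_filter_not, Finset.card_powersetCard, Finset.card_univ,
      Nat.card_eq_fintype_card]
  let 𝒮 : Finset (Subgroup G) := Finset.univ.filter (fun H => Nat.card H = k)
  have hN : Nat.card {H : Subgroup G // Nat.card H = k} = 𝒮.card := by
    rw [Nat.card_eq_fintype_card, Fintype.card_subtype]
  have hΩ₁ : ∀ X, X ∈ Ω₁ ↔ X.card = k ∧ Nat.card (MulAction.stabilizer G X) = k := by
    intro X
    simp [Ω₁, Ω, Finset.mem_powersetCard]
  have hΩ₂ : ∀ X, X ∈ Ω₂ ↔ X.card = k ∧ ¬ Nat.card (MulAction.stabilizer G X) = k := by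
    intro X
    simp [Ω₂, Ω, Finset.mem_powersetCard]
  have h4 : Ω₁.card * k = 𝒮.card * Nat.card G := by
    have e1 : (Ω₁.sigma (fun X => X)).card = Ω₁.card * k := by
      rw [Finset.card_sigma]
      exact Finset.sum_const_nat (fun X hX => ((hΩ₁ X).mp hX).1)
    have e2 : (𝒮 ×ˢ (Finset.univ : Finset G)).card = 𝒮.card * Nat.card G := by
      rw [Finset.card_product, Finset.card_univ, Nat.card_eq_fintype_card]
    rw [← e1, ← e2]
    apply Finset.card_nbij' (fun q => (MulAction.stabilizer G q.1, q.2))
      (fun r => ⟨rcoset r.1 r.2, r.2⟩)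
    · rintro ⟨X, x⟩ hq
      rw [Finset.mem_coe, Finset.mem_sigma] at hq
      simp only [Finset.coe_product, Set.mem_prod, Finset.mem_coe, Finset.mem_univ, and_true]
      exact Finset.mem_filter.mpr ⟨Finset.mem_univ _, ((hΩ₁ X).mp hq.1).2⟩
    · rintro ⟨H, x⟩ hr
      rw [Finset.mem_coe, Finset.mem_product] at hr
      have hH : Nat.card H = k := (Finset.mem_filter.mp hr.1).2
      rw [Finset.mem_coe, Finset.mem_sigma]
      refine ⟨(hΩ₁ _).mpr ⟨by rw [card_rcoset, hH], by rw [stabilizer_rcoset, hH]⟩, ?_⟩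
      rw [mem_rcoset]; simp
    · rintro ⟨X, x⟩ hq
      rw [Finset.mem_coe, Finset.mem_sigma] at hq
      obtain ⟨h1, h2⟩ := (hΩ₁ X).mp hq.1
      simp only
      rw [eq_rcoset_of_card_stabilizer X (h2.trans h1.symm) x hq.2]
    · rintro ⟨H, x⟩ _
      simp only
      rw [stabilizer_rcoset]
  have h2 : p * m ∣ Ω₂.card := by
    let Y : SubMulAction G (Finset G) :=
      { carrier := {X | X ∈ Ω₂}
        smul_mem' := by
          intro g X hX
          obtain ⟨h1, h2⟩ := (hΩ₂ X).mp hX
          refine (hΩ₂ _).mpr ⟨by rw [Finset.card_smul_finset, h1], ?_⟩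
          rw [MulAction.stabilizer_smul_eq_stabilizer_map_conj,
            Subgroup.card_map_of_injective (MulAut.conj g).injective]
          exact h2 }
    have hY : Nat.card Y = Ω₂.card := by
      have : Nat.card Y = Nat.card (Ω₂ : Set (Finset G)) := rfl
      rw [this, Nat.card_coe_set_eq, Set.ncard_coe_finset]
    rw [← hY]
    apply dvd_card_of_forall_dvd_index_stabilizer (G := G)
    intro y
    rw [SubMulAction.stabilizer_of_subMul]
    obtain ⟨h1, h2⟩ := (hΩ₂ (y : Finset G)).mp y.2
    set S := MulAction.stabilizer G (y : Finset G) with hS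
    have hd : Nat.card S ∣ p ^ β := by
      have := card_stabilizer_dvd_card_finset (y : Finset G)
      rwa [h1] at this
    obtain ⟨j, hj, hSj⟩ := (Nat.dvd_prime_pow hp.out).mp hd
    have hjlt : j < β := by
      rcases Nat.lt_or_ge j β with h | h
      · exact h
      · exfalso
        apply h2
        rw [hSj, hk, le_antisymm hj h]
    have hci := S.card_mul_index
    rw [hSj, hm, hk] at hci
    have hpow : p ^ β = p ^ j * (p * p ^ (β - j - 1)) := by
      rw [← pow_succ', ← pow_add]
      congr 1
      omega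
    rw [hpow, mul_assoc] at hci
    have := Nat.eq_of_mul_eq_mul_left (pow_pos hp.out.pos j) hci
    rw [this]
    exact ⟨p ^ (β - j - 1), by ring⟩
  obtain ⟨t, ht⟩ := h2
  have hc := choose_pred_modEq_one p β m hm0
  rw [← hk] at hc
  set c := (k * m - 1).choose (k - 1) with hcdef
  have hchoose : (Nat.card G).choose k = m * c := by
    have h := Nat.add_one_mul_choose_eq (k * m - 1) (k - 1)
    have e1 : k * m - 1 + 1 = k * m := Nat.sub_add_cancel (Nat.mul_pos hk0 hm0)
    have e2 : k - 1 + 1 = k := Nat.sub_add_cancel hk0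
    rw [e1, e2] at h
    rw [hm]
    apply Nat.eq_of_mul_eq_mul_right hk0
    rw [← h, hcdef]
    ring
  have ha : Ω₁.card = 𝒮.card * m := by
    apply Nat.eq_of_mul_eq_mul_right hk0
    rw [h4, hm]
    ring
  rw [hN]
  rw [ha, ht, hchoose] at hsplit
  have hfin : 𝒮.card + p * t = c := by
    apply Nat.eq_of_mul_eq_mul_left hm0
    rw [← hsplit]
    ring
  have : 𝒮.card ≡ c [MOD p] := by
    rw [← hfin]
    unfold Nat.ModEq
    rw [Nat.add_mul_mod_self_left]
  exact this.trans hc

end Cfsg.Agent.Lib.Helper21
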