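import Mathlib
import Cfsg.Agent.Lib.Helper21.Wielandt

set_option autoImplicit false

namespace Cfsg.Agent.Lib.Helper21

theorem dvd_sum_of_invariant {G Y : Type*} [Group G] [MulAction G Y] [Fintype Y] (f : Y → ℕ)
    (hf : ∀ (g : G) (y : Y), f (g • y) = f y) (d : ℕ)
    (h : ∀ y, d ∣ (MulAction.stabilizer G y).index * f y) : d ∣ ∑ y, f y := by
  classical
  haveI : Fintype (MulAction.orbitRel.Quotient G Y) := Fintype.ofFinite _
  haveI : ∀ ω : MulAction.orbitRel.Quotient G Y, Fintype ω.orbit := fun ω => Fintype.ofFinite _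
  rw [← (MulAction.selfEquivSigmaOrbits' G Y).symm.sum_comp f, Fintype.sum_sigma]
  apply Finset.dvd_sum
  intro ω _
  have hconst : ∀ y : ω.orbit, f ((MulAction.selfEquivSigmaOrbits' G Y).symm ⟨ω, y⟩) = f ω.out := by
    intro y
    have h1 : (MulAction.selfEquivSigmaOrbits' G Y).symm ⟨ω, y⟩ = (y : Y) := rfl
    rw [h1]
    have h2 : (y : Y) ∈ MulAction.orbit G ω.out := by
      rw [← MulAction.orbitRel.Quotient.orbit_eq_orbit_out ω Quotient.out_eq']
      exact y.2
    obtain ⟨g, hg⟩ := h2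
    rw [← hg]
    exact hf g _
  rw [Finset.sum_congr rfl (fun y _ => hconst y), Finset.sum_const, Finset.card_univ, smul_eq_mul]
  have h3 : Fintype.card ω.orbit = (MulAction.stabilizer G ω.out).index := by
    rw [MulAction.index_stabilizer, ← Nat.card_coe_set_eq, ← Nat.card_eq_fintype_card,
      MulAction.orbitRel.Quotient.orbit_eq_orbit_out ω Quotient.out_eq']
  rw [h3]
  exact h _

theorem dvd_card_of_equivariant {G X Y : Type*} [Group G] [MulAction G X] [MulAction G Y] [Finite X]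
    [Finite Y] (π : X → Y) (hπ : ∀ (g : G) (x : X), π (g • x) = g • π x) (d : ℕ)
    (h : ∀ y, d ∣ (MulAction.stabilizer G y).index * Nat.card {x // π x = y}) : d ∣ Nat.card X := by
  classical
  haveI : Fintype Y := Fintype.ofFinite Y
  rw [← Nat.card_congr (Equiv.sigmaFiberEquiv π), Nat.card_sigma]
  apply dvd_sum_of_invariant (G := G) (fun y => Nat.card {x // π x = y}) _ d h
  intro g y
  apply Nat.card_congr
  refine ((MulAction.toPerm g).subtypeEquiv (fun x => ?_)).symm
  show π x = y ↔ π (g • x) = g • y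
  rw [hπ, smul_left_cancel_iff]

theorem card_zpowers_eq {G : Type*} [Group G] [Finite G] (x : G) :
    Nat.card {x' : G // Subgroup.zpowers x' = Subgroup.zpowers x} = (orderOf x).totient := by
  classical
  set C := Subgroup.zpowers x with hC
  haveI : Fintype C := Fintype.ofFinite C
  have h1 := IsCyclic.card_orderOf_eq_totient (α := C) (d := Fintype.card C) dvd_rfl
  have hcard : Fintype.card C = orderOf x := by
    rw [← Nat.card_eq_fintype_card, Nat.card_zpowers]
  rw [← hcard, ← h1, ← Fintype.card_subtype, ← Nat.card_eq_fintype_card]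
  apply Nat.card_congr
  refine ⟨fun x' => ⟨⟨x'.1, le_of_eq x'.2 (Subgroup.mem_zpowers x'.1)⟩, ?_⟩,
    fun c => ⟨c.1.1, ?_⟩, ?_, ?_⟩
  · rw [Subgroup.orderOf_mk, ← Nat.card_zpowers, x'.2, Nat.card_eq_fintype_card]
  · apply Subgroup.eq_of_le_of_card_ge
    · rw [Subgroup.zpowers_le]; exact c.1.2
    · rw [Nat.card_zpowers (c.1.1 : G), Subgroup.orderOf_coe, c.2, Nat.card_eq_fintype_card]
  · intro x'; rfl
  · intro c; rfl

/-- counting solutions of `z ^ m = 1` modulo a central subgroup of order prime to `m` -/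
theorem card_pow_eq_one_quotient {C : Type*} [Group C] [Finite C] (Z : Subgroup C) [Z.Normal]
    (hZ : Z ≤ Subgroup.center C) (m : ℕ) (hm : (Nat.card Z).Coprime m) :
    Nat.card {z : C // z ^ m = 1} = Nat.card {w : C ⧸ Z // w ^ m = 1} := by
  let φ : {z : C // z ^ m = 1} → {w : C ⧸ Z // w ^ m = 1} := fun z =>
    ⟨QuotientGroup.mk z.1, by rw [← QuotientGroup.mk_pow, z.2]; rfl⟩
  have hcomm : ∀ u ∈ Z, ∀ c : C, Commute c u := fun u hu c => (Subgroup.mem_center_iff.mp (hZ hu)) c
  have hord : ∀ u ∈ Z, u ^ m = 1 → u = 1 := by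
    intro u hu hum
    have d1 : orderOf u ∣ m := orderOf_dvd_of_pow_eq_one hum
    have d2 : orderOf u ∣ Nat.card Z := by
      have := orderOf_dvd_natCard (⟨u, hu⟩ : Z)
      rwa [Subgroup.orderOf_mk] at this
    exact orderOf_eq_one_iff.mp (Nat.eq_one_of_dvd_coprimes hm d2 d1)
  apply Nat.card_congr (Equiv.ofBijective φ ⟨?_, ?_⟩)
  · intro z₁ z₂ h
    have h1 : (QuotientGroup.mk z₁.1 : C ⧸ Z) = QuotientGroup.mk z₂.1 := congrArg Subtype.val h
    rw [QuotientGroup.eq] at h1
    set u := z₁.1⁻¹ * z₂.1 with hu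
    have h2 : z₂.1 = z₁.1 * u := by rw [hu]; group
    have h3 : u ^ m = 1 := by
      have := z₂.2
      rw [h2, (hcomm u h1 z₁.1).mul_pow, z₁.2, one_mul] at this
      exact this
    have h4 := hord u h1 h3
    apply Subtype.ext
    rw [h2, h4, mul_one]
  · rintro ⟨w, hw⟩
    obtain ⟨c, rfl⟩ := QuotientGroup.mk_surjective w
    rw [← QuotientGroup.mk_pow, QuotientGroup.eq_one_iff] at hw
    set u := (c ^ m)⁻¹ with hu
    have huZ : u ∈ Z := Z.inv_mem hw
    have hcop : m.Coprime (orderOf u) := by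
      have d2 : orderOf u ∣ Nat.card Z := by
        have := orderOf_dvd_natCard (⟨u, huZ⟩ : Z)
        rwa [Subgroup.orderOf_mk] at this
      exact (Nat.Coprime.coprime_dvd_left d2 hm).symm
    obtain ⟨k, hk⟩ := exists_pow_eq_self_of_coprime hcop
    have hvZ : u ^ k ∈ Z := Z.pow_mem huZ k
    refine ⟨⟨c * u ^ k, ?_⟩, ?_⟩
    · rw [(hcomm _ hvZ c).mul_pow, ← pow_mul, mul_comm k m, pow_mul, hk, hu, mul_inv_cancel]
    · apply Subtype.ext
      show (QuotientGroup.mk (c * u ^ k) : C ⧸ Z) = QuotientGroup.mk c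
      rw [QuotientGroup.eq]
      have : (c * u ^ k)⁻¹ * c = (u ^ k)⁻¹ := by
        rw [mul_inv_rev, inv_mul_cancel_right]
      rw [this]
      exact Z.inv_mem hvZ

end Cfsg.Agent.Lib.Helper21
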