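import Mathlib
import Cfsg.Agent.Lib.Helper21.FrobCount

set_option autoImplicit false

namespace Cfsg.Agent.Lib.Helper21

theorem pow_eq_pow_of_modEq {G : Type*} [Group G] {x : G} {k r s : ℕ} (hx : x ^ k = 1)
    (h : r ≡ s [MOD k]) : x ^ r = x ^ s :=
  pow_eq_pow_iff_modEq.mpr (h.of_dvd (orderOf_dvd_of_pow_eq_one hx))

/-- exponents splitting an element into its `q`-part and `m`-part -/
structure SplitExp (q m a b : ℕ) : Prop where
  cop : Nat.Coprime q m
  a1 : a ≡ 1 [MOD q]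
  a0 : a ≡ 0 [MOD m]
  b0 : b ≡ 0 [MOD q]
  b1 : b ≡ 1 [MOD m]

theorem exists_splitExp {q m : ℕ} (h : Nat.Coprime q m) : ∃ a b, SplitExp q m a b := by
  obtain ⟨a, ha1, ha0⟩ := Nat.chineseRemainder h 1 0
  obtain ⟨b, hb0, hb1⟩ := Nat.chineseRemainder h 0 1
  exact ⟨a, b, h, ha1, ha0, hb0, hb1⟩

theorem SplitExp.add {q m a b : ℕ} (h : SplitExp q m a b) : a + b ≡ 1 [MOD q * m] := by
  rw [← Nat.modEq_and_modEq_iff_modEq_mul h.cop]
  exact ⟨by simpa using h.a1.add h.b0, by simpa using h.a0.add h.b1⟩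

theorem SplitExp.pow_a_mul_pow_b {G : Type*} [Group G] {q m a b : ℕ} (h : SplitExp q m a b) {x : G}
    (hx : x ^ (q * m) = 1) : x ^ a * x ^ b = x := by
  rw [← pow_add, pow_eq_pow_of_modEq hx h.add, pow_one]

theorem SplitExp.pow_a_pow_q {G : Type*} [Group G] {q m a b : ℕ} (h : SplitExp q m a b) {x : G}
    (hx : x ^ (q * m) = 1) : (x ^ a) ^ q = 1 := by
  obtain ⟨c, hc⟩ := (Nat.modEq_zero_iff_dvd.mp h.a0)
  rw [← pow_mul, hc, mul_comm m c, mul_assoc, mul_comm m q, mul_comm c, pow_mul, hx, one_pow]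

theorem SplitExp.pow_b_pow_m {G : Type*} [Group G] {q m a b : ℕ} (h : SplitExp q m a b) {x : G}
    (hx : x ^ (q * m) = 1) : (x ^ b) ^ m = 1 := by
  obtain ⟨c, hc⟩ := (Nat.modEq_zero_iff_dvd.mp h.b0)
  rw [← pow_mul, hc, mul_comm q c, mul_assoc, mul_comm c, pow_mul, hx, one_pow]

theorem SplitExp.mul_pow_a {G : Type*} [Group G] {q m a b : ℕ} (h : SplitExp q m a b) {y z : G}
    (hyz : Commute y z) (hy : y ^ q = 1) (hz : z ^ m = 1) : (y * z) ^ a = y := by
  rw [hyz.mul_pow, pow_eq_pow_of_modEq hy h.a1, pow_eq_pow_of_modEq hz h.a0, pow_one, pow_zero, mul_one]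

theorem SplitExp.mul_pow_b {G : Type*} [Group G] {q m a b : ℕ} (h : SplitExp q m a b) {y z : G}
    (hyz : Commute y z) (hy : y ^ q = 1) (hz : z ^ m = 1) : (y * z) ^ b = z := by
  rw [hyz.mul_pow, pow_eq_pow_of_modEq hy h.b0, pow_eq_pow_of_modEq hz h.b1, pow_one, pow_zero, one_mul]

theorem SplitExp.mul_pow_qm {G : Type*} [Group G] {q m : ℕ} {y z : G}
    (hyz : Commute y z) (hy : y ^ q = 1) (hz : z ^ m = 1) : (y * z) ^ (q * m) = 1 := by
  rw [hyz.mul_pow, pow_mul, hy, one_pow, mul_comm q m, pow_mul, hz, one_pow, one_mul]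

theorem SplitExp.card_fiber {G : Type*} [Group G] {q m a b : ℕ} (h : SplitExp q m a b) (y : G)
    (hy : y ^ q = 1) :
    Nat.card {x : G // x ^ (q * m) = 1 ∧ x ^ a = y} =
      Nat.card {z : Subgroup.centralizer {y} // z ^ m = 1} := by
  apply Nat.card_congr
  refine ⟨fun x => ⟨⟨x.1 ^ b, ?_⟩, ?_⟩, fun z => ⟨y * z.1.1, ?_, ?_⟩, ?_, ?_⟩
  · rw [Subgroup.mem_centralizer_singleton_iff]
    obtain ⟨x, hx1, hx2⟩ := x
    subst hx2
    exact ((Commute.refl x).pow_pow b a).eq
  · apply Subtype.ext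
    exact h.pow_b_pow_m x.2.1
  · exact SplitExp.mul_pow_qm (Subgroup.mem_centralizer_singleton_iff.mp z.1.2).symm hy
      (congrArg Subtype.val z.2)
  · exact h.mul_pow_a (Subgroup.mem_centralizer_singleton_iff.mp z.1.2).symm hy
      (congrArg Subtype.val z.2)
  · intro x
    apply Subtype.ext
    show y * x.1 ^ b = x.1
    obtain ⟨x, hx1, hx2⟩ := x
    subst hx2
    exact h.pow_a_mul_pow_b hx1
  · intro z
    apply Subtype.ext
    apply Subtype.ext
    exact h.mul_pow_b (Subgroup.mem_centralizer_singleton_iff.mp z.1.2).symm hy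
      (congrArg Subtype.val z.2)

/-- class-sum divisibility -/
theorem SplitExp.dvd_card {G : Type*} [Group G] [Finite G] {q m a b : ℕ} (h : SplitExp q m a b)
    (hm : m ∣ Nat.card G) (Q : G → Prop) (hQc : ∀ (g y : G), Q y → Q (g * y * g⁻¹))
    (hQq : ∀ y, Q y → y ^ q = 1)
    (hF : ∀ y, Q y → Nat.gcd m (Nat.card (Subgroup.centralizer {y})) ∣
      Nat.card {z : Subgroup.centralizer {y} // z ^ m = 1}) :
    m ∣ Nat.card {x : G // x ^ (q * m) = 1 ∧ Q (x ^ a)} := by
  let X : SubMulAction (ConjAct G) G :=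
    { carrier := {x | x ^ (q * m) = 1 ∧ Q (x ^ a)}
      smul_mem' := by
        intro g x hx
        refine ⟨?_, ?_⟩
        · rw [← smul_pow', hx.1, smul_one]
        · rw [← smul_pow', ConjAct.smul_def]
          exact hQc _ _ hx.2 }
  let Y : SubMulAction (ConjAct G) G :=
    { carrier := {y | Q y}
      smul_mem' := by
        intro g y hy
        rw [ConjAct.smul_def]
        exact hQc _ _ hy }
  haveI : Finite X := Finite.of_equiv {x : G // x ^ (q * m) = 1 ∧ Q (x ^ a)} (Equiv.refl _)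
  haveI : Finite Y := Finite.of_equiv {y : G // Q y} (Equiv.refl _)
  have hX : Nat.card {x : G // x ^ (q * m) = 1 ∧ Q (x ^ a)} = Nat.card X := rfl
  rw [hX]
  let π : X → Y := fun x => ⟨x.1 ^ a, x.2.2⟩
  apply dvd_card_of_equivariant (G := ConjAct G) π
  · intro g x
    apply Subtype.ext
    show (g • x.1) ^ a = g • (x.1 ^ a)
    rw [smul_pow']
  · intro y
    have hy : Q y.1 := y.2
    have hfib : Nat.card {x : X // π x = y} = Nat.card {x : G // x ^ (q * m) = 1 ∧ x ^ a = y.1} := by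
      apply Nat.card_congr
      refine ⟨fun x => ⟨x.1.1, x.1.2.1, congrArg Subtype.val x.2⟩,
        fun x => ⟨⟨x.1, x.2.1, by rw [x.2.2]; exact hy⟩, Subtype.ext x.2.2⟩, ?_, ?_⟩
      · intro x; rfl
      · intro x; rfl
    rw [hfib, h.card_fiber y.1 (hQq _ hy), SubMulAction.stabilizer_of_subMul]
    set C := Subgroup.centralizer {(y : G)} with hC
    have hidx : (MulAction.stabilizer (ConjAct G) (y : G)).index = C.index := by
      have h1 := (MulAction.stabilizer (ConjAct G) (y : G)).card_mul_index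
      have h2 := C.card_mul_index
      rw [← Subgroup.nat_card_centralizer_nat_card_stabilizer] at h1
      have h3 : Nat.card (ConjAct G) = Nat.card G := rfl
      rw [h3, ← h2] at h1
      exact Nat.eq_of_mul_eq_mul_left Nat.card_pos h1
    rw [hidx]
    have h1 : m ∣ C.index * Nat.gcd m (Nat.card C) := by
      rw [← Nat.gcd_mul_left]
      apply Nat.dvd_gcd (Dvd.intro_left _ rfl)
      rw [mul_comm, C.card_mul_index]
      exact hm
    exact h1.trans (Nat.mul_dvd_mul_left _ (hF _ hy))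

end Cfsg.Agent.Lib.Helper21
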