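import Mathlib
import Cfsg.Agent.Lib.Helper21.FrobDecomp

set_option autoImplicit false

namespace Cfsg.Agent.Lib.Helper21

/-- The number of elements whose order satisfies `R` is divisible by any common divisor of the `φ (k)`. -/
theorem dvd_card_orderOf_of_dvd_totient {G : Type*} [Group G] [Finite G] (R : ℕ → Prop) (d : ℕ)
    (h : ∀ k, R k → d ∣ k.totient) : d ∣ Nat.card {x : G // R (orderOf x)} := by
  classical
  haveI : Fintype (Subgroup G) := Fintype.ofFinite _
  let π : {x : G // R (orderOf x)} → Subgroup G := fun x => Subgroup.zpowers x.1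
  rw [← Nat.card_congr (Equiv.sigmaFiberEquiv π), Nat.card_sigma]
  apply Finset.dvd_sum
  intro C _
  by_cases hne : Nonempty {x // π x = C}
  · obtain ⟨⟨x₀, hx₀⟩⟩ := hne
    have hx₀' : Subgroup.zpowers x₀.1 = C := hx₀
    have : Nat.card {x // π x = C} = Nat.card {x' : G // Subgroup.zpowers x' = Subgroup.zpowers x₀.1} := by
      apply Nat.card_congr
      refine ⟨fun x => ⟨x.1.1, (x.2 : Subgroup.zpowers x.1.1 = C).trans hx₀'.symm⟩,
        fun x' => ⟨⟨x'.1, ?_⟩, (x'.2.trans hx₀' : Subgroup.zpowers x'.1 = C)⟩, ?_, ?_⟩
      · have : orderOf x'.1 = orderOf x₀.1 := by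
          rw [← Nat.card_zpowers, x'.2, Nat.card_zpowers]
        rw [this]
        exact x₀.2
      · intro x; rfl
      · intro x; rfl
    rw [this, card_zpowers_eq]
    exact h _ x₀.2
  · rw [not_nonempty_iff] at hne
    rw [Nat.card_of_isEmpty]
    exact dvd_zero d

theorem prime_pow_succ_dvd_of {p e m k : ℕ} (hp : p.Prime) (hpm : ¬ p ∣ m) (hm0 : m ≠ 0)
    (h1 : k ∣ p ^ (e + 1) * m) (h2 : ¬ k ∣ p ^ e * m) : p ^ (e + 1) ∣ k := by
  have hk0 : k ≠ 0 := by
    rintro rfl
    rw [zero_dvd_iff] at h1
    exact (Nat.mul_ne_zero (pow_ne_zero _ hp.ne_zero) hm0) h1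
  obtain ⟨j, k', hpk', hk⟩ := Nat.exists_eq_pow_mul_and_not_dvd hk0 p hp.ne_one
  have hc1 : Nat.Coprime k' (p ^ (e + 1)) :=
    Nat.Coprime.pow_right _ ((Nat.Prime.coprime_iff_not_dvd hp).mpr hpk').symm
  have hk'm : k' ∣ m := hc1.dvd_of_dvd_mul_left ((Dvd.intro_left _ hk.symm).trans h1)
  have hc2 : Nat.Coprime (p ^ j) m := Nat.Coprime.pow_left _ ((Nat.Prime.coprime_iff_not_dvd hp).mpr hpm)
  have hj : p ^ j ∣ p ^ (e + 1) := hc2.dvd_of_dvd_mul_right ((Dvd.intro _ hk.symm).trans h1)
  have hj' : j ≤ e + 1 := (Nat.pow_dvd_pow_iff_le_right hp.one_lt).mp hj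
  rcases Nat.lt_or_ge j (e + 1) with hlt | hge
  · exfalso
    apply h2
    rw [hk]
    exact Nat.mul_dvd_mul (pow_dvd_pow p (by omega)) hk'm
  · have : j = e + 1 := le_antisymm hj' hge
    rw [hk, this]
    exact Dvd.intro _ rfl

theorem card_pow_eq_one_gcd {H : Type*} [Group H] [Finite H] (m : ℕ) :
    Nat.card {x : H // x ^ m = 1} = Nat.card {x : H // x ^ (Nat.gcd m (Nat.card H)) = 1} := by
  apply Nat.card_congr
  apply Equiv.subtypeEquivRight
  intro x
  rw [pow_gcd_eq_one]
  simp

theorem frobenius_aux.{u} : ∀ (N : ℕ) (G : Type u) [Group G] [Finite G], Nat.card G = N →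
    ∀ n, n ∣ N → n ∣ Nat.card {x : G // x ^ n = 1} := by
  intro N
  induction N using Nat.strong_induction_on with
  | _ N ih1 =>
    intro G _ _ hcard
    have hN0 : N ≠ 0 := by rw [← hcard]; exact Nat.card_pos.ne'
    have ihg : ∀ (H : Type u) [Group H] [Finite H], Nat.card H < N → ∀ m : ℕ,
        Nat.gcd m (Nat.card H) ∣ Nat.card {x : H // x ^ m = 1} := by
      intro H _ _ hlt m
      rw [card_pow_eq_one_gcd]
      exact ih1 _ hlt H rfl _ (Nat.gcd_dvd_right _ _)
    have key : ∀ (k n : ℕ), N - n = k → n ∣ N → n ∣ Nat.card {x : G // x ^ n = 1} := by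
      intro k
      induction k using Nat.strong_induction_on with
      | _ k ih2 =>
        intro n hk hnN
        have hn0 : n ≠ 0 := by rintro rfl; exact hN0 (zero_dvd_iff.mp hnN)
        have hnle : n ≤ N := Nat.le_of_dvd (Nat.pos_of_ne_zero hN0) hnN
        by_cases hnN' : n = N
        · have : Nat.card {x : G // x ^ n = 1} = N := by
            rw [← hcard]
            apply Nat.card_congr
            refine (Equiv.subtypeUnivEquiv ?_)
            intro x
            rw [hnN', ← hcard]
            exact pow_card_eq_one'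
          rw [this]
          exact hnN
        obtain ⟨c, hc⟩ := hnN
        have hc1 : c ≠ 1 := by rintro rfl; exact hnN' (by rw [hc, mul_one])
        obtain ⟨p, hp, hpc⟩ := Nat.exists_prime_and_dvd hc1
        haveI : Fact p.Prime := ⟨hp⟩
        have hnpN : n * p ∣ N := by rw [hc]; exact Nat.mul_dvd_mul_left n hpc
        have hnp : n < n * p := by
          have := hp.two_le
          nlinarith [Nat.pos_of_ne_zero hn0]
        have hnple : n * p ≤ N := Nat.le_of_dvd (Nat.pos_of_ne_zero hN0) hnpN
        have hbig := ih2 (N - n * p) (by omega) (n * p) rfl hnpN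
        obtain ⟨e, m, hpm, hn⟩ := Nat.exists_eq_pow_mul_and_not_dvd hn0 p hp.ne_one
        have hm0 : m ≠ 0 := by rintro rfl; exact hpm (dvd_zero p)
        set q := p ^ (e + 1) with hq
        have hqm : q * m = n * p := by rw [hq, hn, pow_succ]; ring
        have hcop : Nat.Coprime q m := Nat.Coprime.pow_left _ ((Nat.Prime.coprime_iff_not_dvd hp).mpr hpm)
        obtain ⟨a, b, hab⟩ := exists_splitExp hcop
        have hmN : m ∣ Nat.card G := by
          rw [hcard]
          exact (Dvd.intro_left _ hn.symm).trans (Dvd.intro _ hc.symm)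
        -- the exceptional set
        have hA : ∀ x : G, (x ^ (q * m) = 1 ∧ orderOf (x ^ a) = q) ↔ (x ^ (n * p) = 1 ∧ ¬ x ^ n = 1) := by
          intro x
          rw [hqm]
          constructor
          · rintro ⟨h1, h2⟩
            refine ⟨h1, ?_⟩
            intro h3
            have h4 : (x ^ a) ^ n = 1 := by rw [← pow_mul, mul_comm, pow_mul, h3, one_pow]
            have h5 : q ∣ n := h2 ▸ orderOf_dvd_of_pow_eq_one h4
            rw [hq, hn, pow_succ] at h5
            exact hpm (Nat.dvd_of_mul_dvd_mul_left (pow_pos hp.pos e) h5)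
          · rintro ⟨h1, h2⟩
            refine ⟨h1, ?_⟩
            have h1' : x ^ (q * m) = 1 := by rw [hqm]; exact h1
            apply orderOf_eq_prime_pow _ (hab.pow_a_pow_q h1')
            intro h3
            apply h2
            have h4 := hab.pow_a_mul_pow_b h1'
            have hcomm : Commute (x ^ a) (x ^ b) := (Commute.refl x).pow_pow a b
            rw [← h4, hcomm.mul_pow, hn, pow_mul, h3, one_pow, mul_comm (p ^ e) m, pow_mul,
              hab.pow_b_pow_m h1', one_pow, one_mul]
        have hB : ∀ x : G, (x ^ (n * p) = 1 ∧ ¬ x ^ n = 1) ↔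
            (orderOf x ∣ p ^ (e + 1) * m ∧ ¬ orderOf x ∣ p ^ e * m) := by
          intro x
          rw [orderOf_dvd_iff_pow_eq_one, orderOf_dvd_iff_pow_eq_one, ← hq, hqm, ← hn]
        set cX := Nat.card {x : G // x ^ (n * p) = 1 ∧ ¬ x ^ n = 1} with hcX
        have hXa : p ^ e ∣ cX := by
          rw [hcX, Nat.card_congr (Equiv.subtypeEquivRight hB)]
          apply dvd_card_orderOf_of_dvd_totient
            (fun k => k ∣ p ^ (e + 1) * m ∧ ¬ k ∣ p ^ e * m)
          rintro k ⟨h1, h2⟩
          have h3 := Nat.totient_dvd_of_dvd (prime_pow_succ_dvd_of hp hpm hm0 h1 h2)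
          rw [Nat.totient_prime_pow_succ hp] at h3
          exact (Dvd.intro _ rfl).trans h3
        have hXb : m ∣ cX := by
          rw [hcX, ← Nat.card_congr (Equiv.subtypeEquivRight hA)]
          apply hab.dvd_card hmN (fun y => orderOf y = q)
          · intro g y hy
            have : g * y * g⁻¹ = MulAut.conj g y := rfl
            rw [this, MulEquiv.orderOf_eq]
            exact hy
          · intro y hy
            rw [← hy]; exact pow_orderOf_eq_one y
          · intro y hy
            set C := Subgroup.centralizer {y} with hC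
            have hyC : y ∈ C := by rw [hC, Subgroup.mem_centralizer_singleton_iff]
            set Z : Subgroup C := Subgroup.zpowers ⟨y, hyC⟩ with hZ
            have hZc : Z ≤ Subgroup.center C := by
              rw [hZ, Subgroup.zpowers_le, Subgroup.mem_center_iff]
              intro g
              apply Subtype.ext
              exact Subgroup.mem_centralizer_singleton_iff.mp g.2
            haveI : Z.Normal := by
              constructor
              intro z hz g
              have := (Subgroup.mem_center_iff.mp (hZc hz)) g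
              rw [this, mul_inv_cancel_right]
              exact hz
            have hZcard : Nat.card Z = q := by
              rw [hZ, Nat.card_zpowers, Subgroup.orderOf_mk, hy]
            rw [card_pow_eq_one_quotient Z hZc m (by rw [hZcard]; exact hcop)]
            have hCZ : Nat.card C = q * Nat.card (C ⧸ Z) := by
              rw [← Z.card_mul_index, hZcard, Subgroup.index_eq_card]
            have hq1 : 1 < q := Nat.one_lt_pow (by omega) hp.one_lt
            have hlt : Nat.card (C ⧸ Z) < N := by
              have h1 : Nat.card C ≤ N := hcard ▸ Subgroup.card_le_card_group C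
              have h2 : 0 < Nat.card (C ⧸ Z) := Nat.card_pos
              nlinarith
            have := ihg (C ⧸ Z) hlt m
            rw [hCZ, Nat.Coprime.gcd_mul_left_cancel_right _ hcop]
            exact this
        have hX : n ∣ cX := by
          rw [hn]
          exact (Nat.Coprime.pow_left e ((Nat.Prime.coprime_iff_not_dvd hp).mpr hpm)).mul_dvd_of_dvd_of_dvd
            hXa hXb
        have hsplit : Nat.card {x : G // x ^ (n * p) = 1} = Nat.card {x : G // x ^ n = 1} + cX := by
          classical
          haveI : Fintype G := Fintype.ofFinite G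
          rw [hcX, Nat.card_eq_fintype_card, Nat.card_eq_fintype_card, Nat.card_eq_fintype_card,
            Fintype.card_subtype, Fintype.card_subtype, Fintype.card_subtype,
            ← Finset.card_filter_add_card_filter_not (s := Finset.univ.filter (fun x : G => x ^ (n * p) = 1))
              (fun x : G => x ^ n = 1), Finset.filter_filter, Finset.filter_filter]
          congr 2
          ext x
          simp only [Finset.mem_filter, Finset.mem_univ, true_and]
          constructor
          · rintro ⟨_, h⟩; exact h
          · intro h; exact ⟨by rw [pow_mul, h, one_pow], h⟩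
        have h1 : n ∣ Nat.card {x : G // x ^ (n * p) = 1} := (Dvd.intro _ rfl).trans hbig
        rw [hsplit] at h1
        exact (Nat.dvd_add_left hX).mp h1
    intro n hn
    exact key _ n rfl hn

/-- **Frobenius**: `gcd (n, |G|)` divides the number of solutions of `x ^ n = 1`. -/
theorem frobenius_gcd {G : Type*} [Group G] [Finite G] (n : ℕ) :
    Nat.gcd n (Nat.card G) ∣ Nat.card {x : G // x ^ n = 1} := by
  rw [card_pow_eq_one_gcd]
  exact frobenius_aux _ G rfl _ (Nat.gcd_dvd_right _ _)

end Cfsg.Agent.Lib.Helper21
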