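import Mathlib
import Cfsg.Agent.Lib.Helper21.Basic
import Cfsg.Agent.Lib.Helper21.DirectFactor
import Cfsg.Agent.Lib.Helper21.Zipper

set_option autoImplicit false

namespace Cfsg.Agent.Lib.Helper21

theorem isNilpotent_zpowers {G : Type*} [Group G] (g : G) : Group.IsNilpotent (Subgroup.zpowers g) := by
  letI : CommGroup (Subgroup.zpowers g) :=
    { (inferInstance : Group (Subgroup.zpowers g)) with mul_comm := mul_comm' }
  exact CommGroup.isNilpotent

theorem isNilpotent_map {G H : Type*} [Group G] [Group H] (f : G →* H) {K : Subgroup G}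
    (hK : Group.IsNilpotent K) : Group.IsNilpotent (K.map f) :=
  Group.nilpotent_of_surjective (f.subgroupMap K) (f.subgroupMap_surjective K)

theorem isNilpotent_closure_pair_of_mem_upperCentralSeries.{u} : ∀ (n : ℕ) (G : Type u) [Group G] (g : G),
    g ∈ Subgroup.upperCentralSeries G n → ∀ x : G,
      Group.IsNilpotent (Subgroup.closure ({x, g} : Set G)) := by
  intro n
  induction n with
  | zero =>
    intro G _ g hg x
    rw [Subgroup.upperCentralSeries_zero, Subgroup.mem_bot] at hg
    apply isNilpotent_of_le (isNilpotent_zpowers x)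
    rw [Subgroup.closure_le]
    rintro z (rfl | rfl)
    · exact Subgroup.mem_zpowers _
    · rw [hg]; exact Subgroup.one_mem _
  | succ n ih =>
    intro G _ g hg x
    set π := QuotientGroup.mk' (Subgroup.center G) with hπ
    have h1 : π g ∈ Subgroup.upperCentralSeries (G ⧸ Subgroup.center G) n := by
      rw [← Subgroup.mem_comap, Subgroup.comap_upperCentralSeries_quotient_center]
      exact hg
    have h2 := ih _ (π g) h1 (π x)
    set H := Subgroup.closure ({x, g} : Set G) with hH
    have h3 : H.map π = Subgroup.closure ({π x, π g} : Set (G ⧸ Subgroup.center G)) := by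
      rw [hH, MonoidHom.map_closure, Set.image_pair]
    rw [← h3] at h2
    haveI := h2
    apply Subgroup.isNilpotent_of_ker_le_center (π.subgroupMap H)
    intro h hh
    rw [MonoidHom.mem_ker] at hh
    have h4 : π (h : G) = 1 := congrArg Subtype.val hh
    have h5 : (h : G) ∈ Subgroup.center G := by
      rw [hπ, QuotientGroup.mk'_apply, QuotientGroup.eq_one_iff] at h4
      exact h4
    rw [Subgroup.mem_center_iff]
    intro a
    apply Subtype.ext
    exact (Subgroup.mem_center_iff.mp h5) a

theorem isPGroup_of_nilpotent_closure {G : Type*} [Group G] [Finite G] {p : ℕ} [Fact p.Prime]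
    {S : Set G} (hnil : Group.IsNilpotent (Subgroup.closure S))
    (hS : ∀ s ∈ S, ∃ k : ℕ, orderOf s = p ^ k) : IsPGroup p (Subgroup.closure S) := by
  set H := Subgroup.closure S with hH
  obtain ⟨P⟩ : Nonempty (Sylow p H) := inferInstance
  have hPn : (P : Subgroup H).Normal := inferInstance
  apply (P.isPGroup'.map H.subtype).to_le
  conv_lhs => rw [hH]
  rw [Subgroup.closure_le]
  intro s hs
  obtain ⟨k, hk⟩ := hS s hs
  exact ⟨⟨s, Subgroup.subset_closure hs⟩,
    mem_sylow_of_normal P hPn (k := k) (by rw [Subgroup.orderOf_mk, hk]), rfl⟩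

theorem commute_of_nilpotent_closure_pair {G : Type*} [Group G] [Finite G] {p q : ℕ} [Fact p.Prime]
    [Fact q.Prime] (hpq : p ≠ q) {y k : G} (hnil : Group.IsNilpotent (Subgroup.closure ({y, k} : Set G)))
    {a b : ℕ} (hk : orderOf k = p ^ a) (hy : orderOf y = q ^ b) : Commute k y := by
  set H := Subgroup.closure ({y, k} : Set G) with hH
  obtain ⟨P⟩ : Nonempty (Sylow p H) := inferInstance
  obtain ⟨Q⟩ : Nonempty (Sylow q H) := inferInstance
  have hkH : k ∈ H := Subgroup.subset_closure (by simp)
  have hyH : y ∈ H := Subgroup.subset_closure (by simp)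
  have h1 : (⟨k, hkH⟩ : H) ∈ (P : Subgroup H) :=
    mem_sylow_of_normal P inferInstance (k := a) (by rw [Subgroup.orderOf_mk, hk])
  have h2 : (⟨y, hyH⟩ : H) ∈ (Q : Subgroup H) :=
    mem_sylow_of_normal Q inferInstance (k := b) (by rw [Subgroup.orderOf_mk, hy])
  have := Subgroup.commute_of_normal_of_disjoint (P : Subgroup H) (Q : Subgroup H) inferInstance
    inferInstance (IsPGroup.disjoint_of_ne p q hpq _ _ P.isPGroup' Q.isPGroup') _ _ h1 h2
  exact congrArg Subtype.val this

/-- `g` generates a nilpotent subgroup with every element -/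
def IsRightNil {G : Type*} [Group G] (g : G) : Prop :=
  ∀ x : G, Group.IsNilpotent (Subgroup.closure ({x, g} : Set G))

theorem IsRightNil.map {G H : Type*} [Group G] [Group H] {g : G} (h : IsRightNil g) (f : G →* H)
    (hf : Function.Surjective f) : IsRightNil (f g) := by
  intro y
  obtain ⟨x, rfl⟩ := hf y
  have := isNilpotent_map f (h x)
  rwa [MonoidHom.map_closure, Set.image_pair] at this

theorem IsRightNil.pow {G : Type*} [Group G] {g : G} (h : IsRightNil g) (n : ℕ) :
    IsRightNil (g ^ n) := by
  intro x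
  apply isNilpotent_of_le (h x)
  rw [Subgroup.closure_le]
  rintro z (rfl | rfl)
  · exact Subgroup.subset_closure (by simp)
  · exact Subgroup.pow_mem _ (Subgroup.subset_closure (by simp)) n

theorem center_ne_bot_of_isRightNil {G : Type*} [Group G] [Finite G] (g : G) (hg : IsRightNil g)
    (hg1 : g ≠ 1) : Subgroup.center G ≠ ⊥ := by
  -- reduce to prime order
  have ho1 : orderOf g ≠ 1 := by rwa [Ne, orderOf_eq_one_iff]
  set p := (orderOf g).minFac with hp
  have hpp : p.Prime := Nat.minFac_prime ho1
  haveI : Fact p.Prime := ⟨hpp⟩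
  have hpd : p ∣ orderOf g := Nat.minFac_dvd _
  set g' := g ^ (orderOf g / p) with hg'
  have hog' : orderOf g' = p := by
    rw [hg', orderOf_pow_orderOf_div (orderOf_pos g).ne' hpd]
  have hRg' : IsRightNil g' := hg.pow _
  let K : Set G := {k | ∃ a : G, k = a * g' * a⁻¹}
  have hKn : ∀ x ∈ K, ∀ b : G, b * x * b⁻¹ ∈ K := by
    rintro _ ⟨a, rfl⟩ b
    exact ⟨b * a, by simp [mul_assoc]⟩
  have hKR : ∀ k ∈ K, IsRightNil k := by
    rintro _ ⟨a, rfl⟩
    exact hRg'.map (MulAut.conj a).toMonoidHom (MulAut.conj a).surjective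
  have hKo : ∀ k ∈ K, orderOf k = p ^ 1 := by
    rintro _ ⟨a, rfl⟩
    have : a * g' * a⁻¹ = MulAut.conj a g' := rfl
    rw [this, MulEquiv.orderOf_eq, hog', pow_one]
  obtain ⟨P⟩ : Nonempty (Sylow p G) := inferInstance
  have hsub := baer_suzuki_set K hKn (fun x hx y hy => by
    apply isPGroup_of_nilpotent_closure (hKR y hy x)
    rintro s (rfl | rfl)
    · exact ⟨1, hKo _ hx⟩
    · exact ⟨1, hKo _ hy⟩) P
  set A := Subgroup.closure K with hA
  have hAP : A ≤ (P : Subgroup G) := by
    rw [hA, Subgroup.closure_le]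
    exact fun k hk => Subgroup.normalCore_le _ (hsub hk)
  haveI hAn : A.Normal := by
    rw [← Subgroup.normalizer_eq_top_iff, eq_top_iff]
    refine le_trans ?_ (conjStab_le_normalizer K)
    intro z _ d hd
    exact hKn d hd z
  have hAp : IsPGroup p A := P.isPGroup'.to_le hAP
  have hg'A : g' ∈ A := Subgroup.subset_closure ⟨1, by simp⟩
  haveI hAnt : Nontrivial A := by
    refine ⟨⟨⟨g', hg'A⟩, 1, ?_⟩⟩
    intro h
    have h1 : g' = 1 := congrArg Subtype.val h
    rw [h1, orderOf_one] at hog'
    exact hpp.one_lt.ne hog'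
  -- elements of `A` commute with `p'`-elements
  have hcomm : ∀ (y : G) (q b : ℕ), q.Prime → q ≠ p → orderOf y = q ^ b → ∀ a ∈ A, Commute a y := by
    intro y q b hq hqp hy
    haveI : Fact q.Prime := ⟨hq⟩
    have : A ≤ Subgroup.centralizer {y} := by
      rw [hA, Subgroup.closure_le]
      intro k hk
      rw [SetLike.mem_coe, Subgroup.mem_centralizer_singleton_iff]
      exact commute_of_nilpotent_closure_pair hqp.symm (hKR k hk y) (hKo k hk) hy
    intro a ha
    exact Subgroup.mem_centralizer_singleton_iff.mp (this ha)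
  -- a fixed point
  letI : MulAction (P : Subgroup G) A :=
    MulAction.compHom A ((MulAut.conjNormal (H := A)).comp (P : Subgroup G).subtype)
  have hdvd : p ∣ Nat.card A := by
    obtain ⟨n, hn0, hn⟩ := hAp.nontrivial_iff_card.mp hAnt
    exact hn.symm ▸ dvd_pow_self _ (ne_of_gt hn0)
  have hone : (1 : A) ∈ MulAction.fixedPoints (P : Subgroup G) A := by
    intro u
    show (MulAut.conjNormal (u : G)) (1 : A) = 1
    exact map_one _
  obtain ⟨b, hb, hb1⟩ := P.isPGroup'.exists_fixed_point_of_prime_dvd_card_of_fixed_point A hdvd hone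
  have hbP : ∀ u ∈ (P : Subgroup G), Commute u (b : G) := by
    intro u hu
    have h1 : (MulAut.conjNormal u) b = b := hb ⟨u, hu⟩
    have h2 : u * (b : G) * u⁻¹ = b := by rw [← MulAut.conjNormal_apply, h1]
    exact mul_inv_eq_iff_eq_mul.mp h2
  have hCtop : Subgroup.centralizer {(b : G)} = ⊤ := by
    rw [← Subgroup.index_eq_one, Nat.eq_one_iff_not_exists_prime_dvd]
    intro q hq hqd
    haveI : Fact q.Prime := ⟨hq⟩
    by_cases hqp : q = p
    · subst hqp
      have hle : (P : Subgroup G) ≤ Subgroup.centralizer {(b : G)} := by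
        intro u hu
        rw [Subgroup.mem_centralizer_singleton_iff]
        exact hbP u hu
      exact P.not_dvd_index (dvd_trans hqd (Subgroup.index_dvd_of_le hle))
    · obtain ⟨Q⟩ : Nonempty (Sylow q G) := inferInstance
      have hle : (Q : Subgroup G) ≤ Subgroup.centralizer {(b : G)} := by
        intro u hu
        rw [Subgroup.mem_centralizer_singleton_iff]
        obtain ⟨k, hk⟩ := orderOf_of_mem_sylow Q hu
        exact (hcomm u q k hq hqp hk b b.2).symm
      exact Q.not_dvd_index (dvd_trans hqd (Subgroup.index_dvd_of_le hle))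
  intro hbot
  have hbc : (b : G) ∈ Subgroup.center G := by
    rw [Subgroup.mem_center_iff]
    intro z
    have : z ∈ Subgroup.centralizer {(b : G)} := hCtop ▸ Subgroup.mem_top z
    exact Subgroup.mem_centralizer_singleton_iff.mp this
  rw [hbot, Subgroup.mem_bot] at hbc
  exact hb1 (Subtype.ext hbc.symm)

theorem mem_hypercenter_of_isRightNil_aux.{u} : ∀ (n : ℕ) (G : Type u) [Group G] [Finite G],
    Nat.card G = n → ∀ g : G, IsRightNil g → ∃ m : ℕ, g ∈ Subgroup.upperCentralSeries G m := by
  intro n
  induction n using Nat.strong_induction_on with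
  | _ n ih =>
    intro G _ _ hcard g hg
    by_cases hg1 : g = 1
    · exact ⟨0, by rw [hg1]; exact Subgroup.one_mem _⟩
    have hZ := center_ne_bot_of_isRightNil g hg hg1
    have hlt : Nat.card (G ⧸ Subgroup.center G) < n := by
      rw [← hcard, ← (Subgroup.center G).card_mul_index, ← Subgroup.index_eq_card]
      have h1 : 1 < Nat.card (Subgroup.center G) := (Subgroup.one_lt_card_iff_ne_bot _).mpr hZ
      have h2 : 0 < (Subgroup.center G).index := Nat.pos_of_ne_zero Subgroup.index_ne_zero_of_finite
      nlinarith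
    obtain ⟨m, hm⟩ := ih _ hlt (G ⧸ Subgroup.center G) rfl _
      (hg.map (QuotientGroup.mk' (Subgroup.center G)) (QuotientGroup.mk'_surjective _))
    refine ⟨m + 1, ?_⟩
    rw [← Nat.succ_eq_add_one, ← Subgroup.comap_upperCentralSeries_quotient_center]
    exact hm

end Cfsg.Agent.Lib.Helper21
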