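import Mathlib

/-! Counting commuting pairs whose first entry satisfies a conjugation invariant predicate. -/

set_option autoImplicit false

namespace Cfsg.Agent.Lib.Helper21

theorem card_invPairs (X : Type*) [Group X] [Finite X] (Q : X → Prop)
    (hQ : ∀ c a : X, Q a → Q (c * a * c⁻¹)) :
    Nat.card {p : X × X // Q p.1 ∧ Commute p.1 p.2} =
      Nat.card {C : ConjClasses X // ∃ g : X, ConjClasses.mk g = C ∧ Q g} * Nat.card X := by
  classical
  let f : {p : X × X // Q p.1 ∧ Commute p.1 p.2} →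
      {C : ConjClasses X // ∃ g : X, ConjClasses.mk g = C ∧ Q g} :=
    fun p => ⟨ConjClasses.mk p.1.1, ⟨p.1.1, rfl, p.2.1⟩⟩
  haveI : Fintype {C : ConjClasses X // ∃ g : X, ConjClasses.mk g = C ∧ Q g} := Fintype.ofFinite _
  rw [← Nat.card_congr (Equiv.sigmaFiberEquiv f), Nat.card_sigma]
  have hfib : ∀ s : {C : ConjClasses X // ∃ g : X, ConjClasses.mk g = C ∧ Q g},
      Nat.card {t : {p : X × X // Q p.1 ∧ Commute p.1 p.2} // f t = s} = Nat.card X := by
    rintro ⟨C, hC⟩
    obtain ⟨x0, rfl, hQ0⟩ := id hC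
    have hex : ∀ x : X, ∃ c : X, ConjClasses.mk x = ConjClasses.mk x0 → c * x0 * c⁻¹ = x := by
      intro x
      by_cases h : ConjClasses.mk x = ConjClasses.mk x0
      · obtain ⟨c, hc⟩ := isConj_iff.1 (ConjClasses.mk_eq_mk_iff_isConj.1 h.symm)
        exact ⟨c, fun _ => hc⟩
      · exact ⟨1, fun h' => absurd h' h⟩
    choose γ hγ using hex
    have hmk : ∀ h : X, ConjClasses.mk (h * x0 * h⁻¹) = ConjClasses.mk x0 := by
      intro h
      exact (ConjClasses.mk_eq_mk_iff_isConj.2 (isConj_iff.2 ⟨h, rfl⟩)).symm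
    let φ : X → {t : {p : X × X // Q p.1 ∧ Commute p.1 p.2} // f t = ⟨ConjClasses.mk x0, hC⟩} :=
      fun h => ⟨⟨(h * x0 * h⁻¹, h * (γ (h * x0 * h⁻¹))⁻¹), by
        refine ⟨hQ h x0 hQ0, ?_⟩
        have h1 := hγ _ (hmk h)
        show (h * x0 * h⁻¹) * (h * (γ (h * x0 * h⁻¹))⁻¹) = (h * (γ (h * x0 * h⁻¹))⁻¹) * (h * x0 * h⁻¹)
        set c := γ (h * x0 * h⁻¹) with hc
        calc (h * x0 * h⁻¹) * (h * c⁻¹) = h * x0 * c⁻¹ := by group
          _ = h * c⁻¹ * (c * x0 * c⁻¹) := by group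
          _ = h * c⁻¹ * (h * x0 * h⁻¹) := by rw [h1]⟩, Subtype.ext (hmk h)⟩
    symm
    apply Nat.card_congr
    refine Equiv.ofBijective φ ⟨?_, ?_⟩
    · intro h h' hh
      have h1 : (φ h).1.1 = (φ h').1.1 := by rw [hh]
      have h2 : h * x0 * h⁻¹ = h' * x0 * h'⁻¹ := congrArg Prod.fst h1
      have h3 : h * (γ (h * x0 * h⁻¹))⁻¹ = h' * (γ (h' * x0 * h'⁻¹))⁻¹ := congrArg Prod.snd h1
      rw [h2] at h3
      exact mul_right_cancel h3
    · rintro ⟨⟨⟨x, y⟩, hxπ, hxy⟩, ht⟩
      have hx : ConjClasses.mk x = ConjClasses.mk x0 := congrArg Subtype.val ht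
      have h1 := hγ x hx
      have h2 : y * γ x * x0 * (y * γ x)⁻¹ = x := by
        calc y * γ x * x0 * (y * γ x)⁻¹ = y * (γ x * x0 * (γ x)⁻¹) * y⁻¹ := by group
          _ = y * x * y⁻¹ := by rw [h1]
          _ = x := by
            have : x * y = y * x := hxy
            rw [← this]; group
      refine ⟨y * γ x, ?_⟩
      apply Subtype.ext
      apply Subtype.ext
      show (y * γ x * x0 * (y * γ x)⁻¹, y * γ x * (γ (y * γ x * x0 * (y * γ x)⁻¹))⁻¹) = (x, y)
      rw [h2]
      simp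
  rw [Finset.sum_congr rfl (fun s _ => hfib s), Finset.sum_const, Finset.card_univ, smul_eq_mul,
    Nat.card_eq_fintype_card (α := {C : ConjClasses X // ∃ g : X, ConjClasses.mk g = C ∧ Q g})]

theorem card_invPairs_of_const (X : Type*) [Group X] [Finite X] (Q : X → Prop) (c : ℕ)
    (hc : ∀ a : X, Q a → Nat.card (Subgroup.centralizer ({a} : Set X)) = c) :
    Nat.card {p : X × X // Q p.1 ∧ Commute p.1 p.2} = Nat.card {a : X // Q a} * c := by
  classical
  let f : {p : X × X // Q p.1 ∧ Commute p.1 p.2} → {a : X // Q a} := fun p => ⟨p.1.1, p.2.1⟩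
  haveI : Fintype {a : X // Q a} := Fintype.ofFinite _
  rw [← Nat.card_congr (Equiv.sigmaFiberEquiv f), Nat.card_sigma]
  have hfib : ∀ s : {a : X // Q a},
      Nat.card {t : {p : X × X // Q p.1 ∧ Commute p.1 p.2} // f t = s} = c := by
    rintro ⟨a, ha⟩
    rw [← hc a ha]
    apply Nat.card_congr
    refine
      { toFun := fun t => ⟨t.1.1.2, by
          rw [Subgroup.mem_centralizer_singleton_iff]
          have h1 : t.1.1.1 = a := congrArg Subtype.val t.2
          have h2 := t.1.2.2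
          rw [h1] at h2
          exact h2.eq.symm⟩
        invFun := fun g => ⟨⟨(a, g.1), ha, by
          have := Subgroup.mem_centralizer_singleton_iff.mp g.2
          exact this.symm⟩, rfl⟩
        left_inv := ?_
        right_inv := ?_ }
    · rintro ⟨⟨⟨x, y⟩, hx, hxy⟩, ht⟩
      have h1 : x = a := congrArg Subtype.val ht
      subst h1
      rfl
    · rintro ⟨g, hg⟩
      rfl
  rw [Finset.sum_congr rfl (fun s _ => hfib s), Finset.sum_const, Finset.card_univ, smul_eq_mul,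
    Nat.card_eq_fintype_card (α := {a : X // Q a})]

end Cfsg.Agent.Lib.Helper21
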