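import Cfsg.Agent.Lib.Helper13.NilMax
import Cfsg.Agent.S0078

set_option autoImplicit false
open Cfsg

/-! A finite group with a maximal subgroup that is nilpotent of class at most two is solvable. -/

namespace Cfsg.Agent.Lib.Helper21

open Subgroup
open scoped commutatorElement Pointwise

universe u

theorem le_normalizer_of_conj_mem {G : Type*} [Group G] {M D : Subgroup G}
    (h : ∀ m ∈ M, ∀ d ∈ D, m * d * m⁻¹ ∈ D) : M ≤ normalizer (D : Set G) := by
  intro m hm
  rw [mem_normalizer_iff]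
  intro d
  constructor
  · exact h m hm d
  · intro hd
    have := h m⁻¹ (M.inv_mem hm) _ hd
    simpa [mul_assoc] using this

/-- the `p`-normality step -/
theorem npc_of_class_two {G : Type u} [Group G] [Finite G] {p : ℕ} [Fact p.Prime]
    (M : Subgroup G) (hnil : Group.IsNilpotent M)
    (hc2 : ∀ a ∈ M, ∀ b ∈ M, ∀ c ∈ M, ⁅a, b⁆ * c = c * ⁅a, b⁆)
    (hNC : ∀ C : Subgroup G, C ≠ ⊥ → C ≤ M → M ≤ normalizer (C : Set G) → normalizer (C : Set G) = M)
    (S : Sylow p G) (hS1 : (S : Subgroup G) ≠ ⊥) (hSM : (S : Subgroup G) ≤ M)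
    (hMS : M ≤ normalizer ((S : Subgroup G) : Set G)) : HasNormalPComplement p G := by
  set Z : Subgroup G := (S : Subgroup G) ⊓ centralizer ((S : Subgroup G) : Set G) with hZ
  have hZ1 : Z ≠ ⊥ := by
    have : Nontrivial (S : Subgroup G) := (Subgroup.nontrivial_iff_ne_bot _).mpr hS1
    have h1 := S.2.center_nontrivial
    obtain ⟨z, hz⟩ := exists_ne (1 : Subgroup.center (S : Subgroup G))
    intro hbot
    apply hz
    have hzZ : ((z : (S : Subgroup G)) : G) ∈ Z := by
      refine Subgroup.mem_inf.mpr ⟨(z : (S : Subgroup G)).2, ?_⟩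
      rw [Subgroup.mem_centralizer_iff]
      intro x hx
      have := Subgroup.mem_center_iff.mp z.2 ⟨x, hx⟩
      exact congrArg Subtype.val this
    rw [hbot, Subgroup.mem_bot] at hzZ
    exact Subtype.ext (Subtype.ext hzZ)
  have hZS : Z ≤ S := inf_le_left
  have hcomm : ∀ m ∈ M, ∀ d ∈ (S : Subgroup G), ⁅m, d⁆ ∈ Z := by
    intro m hm d hd
    refine Subgroup.mem_inf.mpr ⟨?_, ?_⟩
    · rw [commutatorElement_def]
      exact (S : Subgroup G).mul_mem ((mem_normalizer_iff.mp (hMS hm) d).mp hd) ((S : Subgroup G).inv_mem hd)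
    · rw [Subgroup.mem_centralizer_iff]
      intro x hx
      exact (hc2 m hm d (hSM hd) x (hSM hx)).symm
  have hnorm : ∀ D : Subgroup G, Z ≤ D → D ≤ S → M ≤ normalizer (D : Set G) := by
    intro D hZD hDS
    apply le_normalizer_of_conj_mem
    intro m hm d hd
    have h1 : m * d * m⁻¹ = ⁅m, d⁆ * d := by rw [commutatorElement_def]; group
    rw [h1]
    exact D.mul_mem (hZD (hcomm m hm d (hDS hd))) hd
  have hNZ : normalizer (Z : Set G) = M := hNC Z hZ1 (hZS.trans hSM) (hnorm Z le_rfl hZS)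
  have hM1 : M ≠ ⊥ := fun h => hS1 (le_bot_iff.mp (h ▸ hSM))
  have hNM : normalizer (M : Set G) = M := hNC M hM1 le_rfl le_normalizer
  have hn : ∀ Q : Sylow p G, (S : Subgroup G) ⊓ centralizer ((S : Subgroup G) : Set G) ≤ (Q : Subgroup G) →
      (Q : Subgroup G) ⊓ centralizer ((Q : Subgroup G) : Set G)
        = (S : Subgroup G) ⊓ centralizer ((S : Subgroup G) : Set G) := by
    intro Q hZQ
    obtain ⟨g, hg⟩ := MulAction.exists_smul_eq G S Q
    have hQmem : ∀ x : G, x ∈ (Q : Subgroup G) ↔ g⁻¹ * x * g ∈ (S : Subgroup G) := by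
      intro x
      rw [← hg, Sylow.coe_subgroup_smul, Subgroup.mem_pointwise_smul_iff_inv_smul_mem]
      simp [MulAut.smul_def]
    suffices hgM : g ∈ M by
      have h1 : g • S = S := Sylow.smul_eq_iff_mem_normalizer.mpr (hMS hgM)
      rw [← hg, h1]
    set ZQ : Subgroup G := (Q : Subgroup G) ⊓ centralizer ((Q : Subgroup G) : Set G) with hZQdef
    have hZQS : ZQ ≤ S := by
      intro y hy
      have h1 : y ∈ centralizer (Z : Set G) := by
        rw [Subgroup.mem_centralizer_iff]
        intro z hz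
        exact (Subgroup.mem_centralizer_iff.mp hy.2) z (hZQ hz)
      have h2 : y ∈ M := hNZ ▸ (Subgroup.centralizer_le_normalizer _ h1)
      have h3 : y ∈ (Q : Subgroup G) ⊓ normalizer ((S : Subgroup G) : Set G) := ⟨hy.1, hMS h2⟩
      have h4 := Q.2.inf_normalizer_sylow S
      have h5 : y ∈ (Q : Subgroup G) ⊓ (S : Subgroup G) := h4 ▸ h3
      exact h5.2
    have hZconj : ∀ z ∈ Z, g * z * g⁻¹ ∈ ZQ := by
      intro z hz
      refine Subgroup.mem_inf.mpr ⟨?_, ?_⟩
      · rw [hQmem]
        have : g⁻¹ * (g * z * g⁻¹) * g = z := by group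
        rw [this]; exact hz.1
      · rw [Subgroup.mem_centralizer_iff]
        intro x hx
        have h1 := (Subgroup.mem_centralizer_iff.mp hz.2) _ ((hQmem x).mp hx)
        calc x * (g * z * g⁻¹) = g * ((g⁻¹ * x * g) * z) * g⁻¹ := by group
          _ = g * (z * (g⁻¹ * x * g)) * g⁻¹ := by rw [h1]
          _ = g * z * g⁻¹ * x := by group
    set D : Subgroup G := (S : Subgroup G) ⊓ (Q : Subgroup G) with hD
    have hZD : Z ≤ D := le_inf hZS hZQ
    have hZQD : ZQ ≤ D := le_inf hZQS inf_le_left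
    have hD1 : D ≠ ⊥ := fun h => hZ1 (le_bot_iff.mp (h ▸ hZD))
    have hND : normalizer (D : Set G) = M := hNC D hD1 (inf_le_left.trans hSM) (hnorm D hZD inf_le_left)
    have h4 : ∀ m ∈ M, ∀ d ∈ D, (g * m * g⁻¹) * d * (g * m * g⁻¹)⁻¹ ∈ D := by
      intro m hm d hd
      have hd0 := (hQmem d).mp hd.2
      have h1 : (g * m * g⁻¹) * d * (g * m * g⁻¹)⁻¹ = (g * ⁅m, g⁻¹ * d * g⁆ * g⁻¹) * d := by
        rw [commutatorElement_def]; group
      rw [h1]
      exact D.mul_mem (hZQD (hZconj _ (hcomm m hm _ hd0))) hd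
    have h6 : ∀ m ∈ M, g * m * g⁻¹ ∈ M := by
      intro m hm
      rw [← hND, mem_normalizer_iff]
      intro d
      constructor
      · exact h4 m hm d
      · intro hd
        have := h4 m⁻¹ (M.inv_mem hm) _ hd
        have h7 : g * m⁻¹ * g⁻¹ * (g * m * g⁻¹ * d * (g * m * g⁻¹)⁻¹) * (g * m⁻¹ * g⁻¹)⁻¹ = d := by group
        rwa [h7] at this
    have h7 : ∀ k : ℕ, ∀ m ∈ M, g ^ k * m * (g ^ k)⁻¹ ∈ M := by
      intro k
      induction k with
      | zero => intro m hm; simpa using hm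
      | succ k ih =>
        intro m hm
        have := h6 _ (ih m hm)
        have h8 : g ^ (k + 1) * m * (g ^ (k + 1))⁻¹ = g * (g ^ k * m * (g ^ k)⁻¹) * g⁻¹ := by
          rw [pow_succ']; group
        rw [h8]; exact this
    have h8 : g ∈ normalizer (M : Set G) := by
      rw [mem_normalizer_iff]
      intro m
      constructor
      · exact h6 m
      · intro hm
        have h9 := h7 (orderOf g - 1) _ hm
        have h10 : g ^ (orderOf g - 1) = g⁻¹ := by
          apply eq_inv_of_mul_eq_one_left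
          rw [← pow_succ, Nat.sub_add_cancel (orderOf_pos g), pow_orderOf_eq_one]
        rw [h10] at h9
        have h11 : g⁻¹ * (g * m * g⁻¹) * g⁻¹⁻¹ = m := by group
        rwa [h11] at h9
    rw [hNM] at h8
    exact h8
  have key := Cfsg.Agent.S0078.result S hn M hNZ.le
  have hMc : (Nat.card (pResidual p M)).Coprime p :=
    Cfsg.Agent.H12.hasNormalPComplement_iff.mp (Cfsg.Agent.Lib.Helper13.npc_of_nilpotent p)
  have hbot : (S : Subgroup G) ⊓ (pResidual p M).map M.subtype = ⊥ := by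
    apply Disjoint.eq_bot
    apply disjoint_of_coprime_natCard
    rw [Subgroup.card_map_of_injective M.subtype_injective]
    obtain ⟨n, hn⟩ := IsPGroup.iff_card.mp S.2
    rw [hn]
    exact (Nat.Coprime.pow_right n hMc).symm
  rw [hbot] at key
  rw [Cfsg.Agent.H12.hasNormalPComplement_iff]
  have hRn : (pResidual p G).Normal := Cfsg.Agent.H12.pResidual_normal p G
  rw [Nat.coprime_comm, Nat.Prime.coprime_iff_not_dvd (Fact.out : p.Prime)]
  intro hdvd
  obtain ⟨x, hx⟩ := exists_prime_orderOf_dvd_card' p hdvd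
  have hxp : IsPGroup p (zpowers (x : G)) := by
    rw [IsPGroup.iff_card]
    exact ⟨1, by rw [Nat.card_zpowers, Subgroup.orderOf_coe, hx, pow_one]⟩
  obtain ⟨Q, hQ⟩ := hxp.exists_le_sylow
  obtain ⟨g, hg⟩ := MulAction.exists_smul_eq G Q S
  have h1 : g * (x : G) * g⁻¹ ∈ (S : Subgroup G) := by
    rw [← hg, Sylow.coe_subgroup_smul]
    exact Subgroup.smul_mem_pointwise_smul (x : G) (MulAut.conj g) _ (hQ (mem_zpowers _))
  have h2 : g * (x : G) * g⁻¹ ∈ pResidual p G := hRn.conj_mem _ x.2 g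
  have h3 : g * (x : G) * g⁻¹ ∈ (S : Subgroup G) ⊓ pResidual p G := ⟨h1, h2⟩
  rw [key, mem_bot] at h3
  have h4 : (x : G) = 1 := by
    have : (x : G) = g⁻¹ * (g * (x : G) * g⁻¹) * g := by group
    rw [this, h3]; group
  have h5 : x = 1 := Subtype.ext h4
  rw [h5, orderOf_one] at hx
  exact (Fact.out : p.Prime).one_lt.ne hx

open Cfsg.Agent.Lib.Helper13 in
theorem solvable_of_coatom_class_two : ∀ (n : ℕ) (G : Type u) [Group G] [Finite G], Nat.card G = n →
    ∀ M : Subgroup G, IsCoatom M → Group.IsNilpotent M →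
    (∀ a ∈ M, ∀ b ∈ M, ∀ c ∈ M, ⁅a, b⁆ * c = c * ⁅a, b⁆) → Group.IsSolvable G := by
  intro n
  induction n using Nat.strong_induction_on with
  | _ n ih =>
  intro G _ _ hn M hM hnil hc2
  have hMsol : Group.IsSolvable M := inferInstance
  by_cases hA : ∃ N : Subgroup G, N.Normal ∧ N ≠ ⊥ ∧ N ≤ M
  · obtain ⟨N, hNn, hN1, hNM⟩ := hA
    have h1 : Group.IsSolvable (G ⧸ N) := by
      refine ih _ (by rw [← hn]; exact Cfsg.Agent.H12.card_quotient_lt hN1) (G ⧸ N) rfl _ (isCoatom_map_mk hM hNM) ?_ ?_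
      · exact Group.nilpotent_of_surjective ((QuotientGroup.mk' N).subgroupMap M)
          ((QuotientGroup.mk' N).subgroupMap_surjective M)
      · rintro _ ⟨a, ha, rfl⟩ _ ⟨b, hb, rfl⟩ _ ⟨c, hc, rfl⟩
        rw [← map_commutatorElement, ← map_mul, ← map_mul, hc2 a ha b hb c hc]
    have h2 : Group.IsSolvable N :=
      Group.isSolvable_of_isSolvable_injective (f := inclusion hNM) (inclusion_injective hNM)
    exact (Group.isSolvable_iff_subgroup_quotient N).mpr ⟨h2, h1⟩
  push Not at hA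
  have hNC : ∀ C : Subgroup G, C ≠ ⊥ → C ≤ M → M ≤ normalizer (C : Set G) → normalizer (C : Set G) = M := by
    intro C hC1 hCM hMC
    rcases hM.le_iff.mp hMC with h | h
    · exact absurd hCM (hA C (normalizer_eq_top_iff.mp h) hC1)
    · exact h
  -- normal `p`-complements for the primes dividing `|M|`
  have hnpc : ∀ p : ℕ, p.Prime → p ∣ Nat.card M → ∃ K : Subgroup G, NPCW p K := by
    intro p hp hpM
    have : Fact p.Prime := ⟨hp⟩
    obtain ⟨P₀⟩ : Nonempty (Sylow p M) := inferInstance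
    have hP₀n : (P₀ : Subgroup M).Normal := inferInstance
    set P := (P₀ : Subgroup M).map M.subtype with hP
    have hPM : P ≤ M := map_subtype_le _
    have hP1 : P ≠ ⊥ := by
      intro h
      rw [hP, map_eq_bot_iff_of_injective _ M.subtype_injective] at h
      exact P₀.ne_bot_of_dvd_card hpM h
    have hPp : IsPGroup p P := P₀.2.map _
    have hMP : M ≤ normalizer (P : Set G) := by
      have h1 := le_normalizer_map (H := (P₀ : Subgroup M)) M.subtype
      rw [normalizer_eq_top, ← MonoidHom.range_eq_map, M.range_subtype] at h1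
      exact h1
    have hNP := hNC P hP1 hPM hMP
    obtain ⟨S, hS⟩ := hPp.exists_le_sylow
    have hPS : P = S := by
      by_contra hne
      have h1 := lt_inf_normalizer S.2 (lt_of_le_of_ne hS hne)
      rw [hNP] at h1
      apply h1.not_ge
      intro x hx
      have h2 : IsPGroup p (((S : Subgroup G) ⊓ M).subgroupOf M) :=
        (S.2.to_le inf_le_left).comap_of_injective _ M.subtype_injective
      have h3 := h2.inf_normalizer_sylow P₀
      have h3' : normalizer ((P₀ : Subgroup M) : Set M) = ⊤ := normalizer_eq_top _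
      have h3'' : (((S : Subgroup G) ⊓ M).subgroupOf M) ⊓ normalizer ((P₀ : Subgroup M) : Set M)
          = (((S : Subgroup G) ⊓ M).subgroupOf M) ⊓ (P₀ : Subgroup M) := h3
      rw [h3', inf_top_eq] at h3''
      replace h3 := h3''
      have h4 : (⟨x, hx.2⟩ : M) ∈ (((S : Subgroup G) ⊓ M).subgroupOf M) := hx
      rw [h3] at h4
      exact ⟨_, h4.2, rfl⟩
    apply exists_NPCW
    exact npc_of_class_two M hnil hc2 hNC S (hPS ▸ hP1) (hPS ▸ hPM) (hPS ▸ hMP)
  choose Kf hKf using hnpc
  let π := {p : ℕ // p.Prime ∧ p ∣ Nat.card M}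
  have : Finite π := by
    apply Set.Finite.subset (Set.finite_Iic (Nat.card M))
    intro p hp
    exact Nat.le_of_dvd Nat.card_pos hp.2
  set K : Subgroup G := ⨅ p : π, Kf p.1 p.2.1 p.2.2 with hK
  have hKn : K.Normal := by
    have : ∀ p : π, (Kf p.1 p.2.1 p.2.2).Normal := fun p => (hKf p.1 p.2.1 p.2.2).1
    exact normal_iInf_normal inferInstance
  have hcop : (Nat.card M).Coprime (Nat.card K) := by
    apply Nat.coprime_of_dvd
    intro p hp hpM hpK
    have h1 : Nat.card K ∣ Nat.card (Kf p hp hpM) := card_dvd_of_le (iInf_le _ (⟨p, hp, hpM⟩ : π))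
    exact (Nat.Prime.coprime_iff_not_dvd hp).mp (hKf p hp hpM).2.1.symm (hpK.trans h1)
  have hKM : K ⊓ M = ⊥ := (disjoint_of_coprime_natCard hcop.symm).eq_bot
  -- `G / K` is solvable
  have hGK : Group.IsSolvable (G ⧸ K) := by
    have h1 : ∀ p : π, ∃ m : ℕ, derivedSeries G m ≤ Kf p.1 p.2.1 p.2.2 := by
      intro p
      have : Fact p.1.Prime := ⟨p.2.1⟩
      have := (hKf p.1 p.2.1 p.2.2).1
      have h2 : IsPGroup p.1 (G ⧸ Kf p.1 p.2.1 p.2.2) := by
        intro y
        obtain ⟨y, rfl⟩ := QuotientGroup.mk'_surjective _ y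
        obtain ⟨j, hj⟩ := (hKf p.1 p.2.1 p.2.2).2.2 y
        exact ⟨j, by rw [← map_pow]; exact (QuotientGroup.eq_one_iff _).mpr hj⟩
      have h3 : Group.IsNilpotent (G ⧸ Kf p.1 p.2.1 p.2.2) := h2.isNilpotent
      have h4 : Group.IsSolvable (G ⧸ Kf p.1 p.2.1 p.2.2) := inferInstance
      obtain ⟨m, hm⟩ := (Group.isSolvable_def _).mp h4
      refine ⟨m, ?_⟩
      rw [← map_derivedSeries_eq (QuotientGroup.mk'_surjective _)] at hm
      intro x hx
      have h5 : (QuotientGroup.mk' (Kf p.1 p.2.1 p.2.2)) x ∈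
          (derivedSeries G m).map (QuotientGroup.mk' (Kf p.1 p.2.1 p.2.2)) := ⟨x, hx, rfl⟩
      rw [hm, mem_bot] at h5
      exact (QuotientGroup.eq_one_iff x).mp h5
    choose mf hmf using h1
    obtain ⟨m, hm⟩ := (Set.finite_range mf).bddAbove
    rw [Group.isSolvable_def]
    refine ⟨m, ?_⟩
    rw [← map_derivedSeries_eq (QuotientGroup.mk'_surjective K), eq_bot_iff]
    rintro _ ⟨x, hx, rfl⟩
    refine (QuotientGroup.eq_one_iff x).mpr ?_
    rw [hK, mem_iInf]
    intro p
    exact hmf p (derivedSeries_antitone G (hm ⟨p, rfl⟩) hx)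
  -- `K` is solvable
  have hKsol : Group.IsSolvable K := by
    by_cases hK1 : K = ⊥
    · have : Subsingleton K := by
        rw [hK1]
        infer_instance
      infer_instance
    have hcard : Nat.card K ≠ 1 := fun h => hK1 (Subgroup.card_eq_one.mp h)
    set q := (Nat.card K).minFac with hq
    have hqp : Fact q.Prime := ⟨Nat.minFac_prime hcard⟩
    have hqd : q ∣ Nat.card K := Nat.minFac_dvd _
    obtain ⟨⟨Q, hQ⟩, -⟩ := Cfsg.H1.coprime_sylow_aux M K (by rw [normalizer_eq_top]; exact le_top) hcop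
      (Or.inl hMsol) q
    set Q' := (Q : Subgroup K).map K.subtype with hQ'
    have hQ'K : Q' ≤ K := map_subtype_le _
    have hQ'ne : Q' ≠ ⊥ := by
      intro h
      rw [hQ', (map_eq_bot_iff_of_injective _ K.subtype_injective)] at h
      exact Q.ne_bot_of_dvd_card hqd h
    have h1 : ¬ Q' ≤ M := by
      intro h
      exact hQ'ne (le_bot_iff.mp (hKM ▸ le_inf hQ'K h))
    have h2 : M ⊔ Q' = ⊤ := hM.2 _ (lt_of_le_of_ne le_sup_left (fun h => h1 (h ▸ le_sup_right)))
    have h3 : Q'.Normal := by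
      rw [← normalizer_eq_top_iff, eq_top_iff, ← h2]
      exact sup_le hQ le_normalizer
    have h4 : K ≤ Q' := by
      intro k hk
      have h5 : k ∈ M ⊔ Q' := by
        rw [h2]
        exact mem_top k
      obtain ⟨m, hm, y, hy, rfl⟩ := mem_sup_of_normal_right.mp h5
      have h6 : m ∈ K := by
        have := K.mul_mem hk (K.inv_mem (hQ'K hy))
        rwa [mul_inv_cancel_right] at this
      have h7 : m ∈ K ⊓ M := ⟨h6, hm⟩
      rw [hKM, mem_bot] at h7
      rw [h7, one_mul]
      exact hy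
    have h5 : IsPGroup q K := (Q.2.map K.subtype).to_le h4
    have h6 : Group.IsNilpotent K := h5.isNilpotent
    infer_instance
  exact (Group.isSolvable_iff_subgroup_quotient K).mpr ⟨hKsol, hGK⟩

end Cfsg.Agent.Lib.Helper21
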