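import Mathlib
import Cfsg.Prelude.Def_Transfer
import Cfsg.Agent.H1.SZ
import Cfsg.Agent.H20.Radical

/-!
# Conjugacy of `p`-nilpotent complements of a normal `p`-subgroup (helper21)
-/

set_option autoImplicit false
set_option linter.style.haveILetI false

namespace Cfsg.Agent.Lib.Helper21

open Subgroup
open scoped Pointwise

variable {G : Type*} [Group G]

/-- The data of a normal `p`-complement `K` of `A` with Sylow subgroup `S`, inside `G`. -/
structure PNilData (p : ℕ) (A K S : Subgroup G) : Prop where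
  hKA : K ≤ A
  hSA : S ≤ A
  hnorm : A ≤ normalizer (K : Set G)
  hS : IsPGroup p S
  hK : (Nat.card K).Coprime p
  hmul : ∀ a ∈ A, ∃ k ∈ K, ∃ s ∈ S, a = k * s
  hmem : ∀ a ∈ A, (orderOf a).Coprime p → a ∈ K

theorem exists_pNilData [Finite G] {p : ℕ} [Fact p.Prime] (A : Subgroup G)
    (h : Cfsg.HasNormalPComplement p A) : ∃ K S : Subgroup G, PNilData p A K S := by
  have hp : p.Prime := Fact.out
  obtain ⟨P, K', hK', hc⟩ := h
  refine ⟨K'.map A.subtype, (P : Subgroup A).map A.subtype, ?_, ?_, ?_, ?_, ?_, ?_, ?_⟩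
  · rintro _ ⟨x, -, rfl⟩; exact x.2
  · rintro _ ⟨x, -, rfl⟩; exact x.2
  · intro a ha
    have key : ∀ b : G, b ∈ A → ∀ n ∈ K'.map A.subtype, b * n * b⁻¹ ∈ K'.map A.subtype := by
      rintro b hb _ ⟨n, hn, rfl⟩
      exact ⟨⟨b, hb⟩ * n * ⟨b, hb⟩⁻¹, hK'.conj_mem n hn _, rfl⟩
    rw [mem_normalizer_iff]
    intro n
    constructor
    · exact key a ha n
    · intro h
      have := key a⁻¹ (A.inv_mem ha) _ h
      simpa [mul_assoc] using this
  · exact P.2.map _
  · rw [card_map_of_injective A.subtype_injective]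
    have h1 : (P : Subgroup A).index = Nat.card K' := hc.index_eq_card
    rw [← h1]
    exact (Nat.Prime.coprime_iff_not_dvd hp).2 P.not_dvd_index |>.symm
  · intro a ha
    obtain ⟨⟨k, s⟩, hks⟩ := hc.2 ⟨a, ha⟩
    refine ⟨k.1.1, ⟨k.1, k.2, rfl⟩, s.1.1, ⟨s.1, s.2, rfl⟩, ?_⟩
    exact (congrArg Subtype.val hks).symm
  · intro a ha hcop
    refine ⟨⟨a, ha⟩, ?_, rfl⟩
    rw [SetLike.mem_coe, ← QuotientGroup.eq_one_iff, ← orderOf_eq_one_iff]
    have h1 : orderOf ((⟨a, ha⟩ : A) : A ⧸ K') ∣ orderOf a := by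
      have := orderOf_map_dvd (QuotientGroup.mk' K') (⟨a, ha⟩ : A)
      rwa [Subgroup.orderOf_mk] at this
    have h2 : orderOf ((⟨a, ha⟩ : A) : A ⧸ K') ∣ Nat.card (P : Subgroup A) := by
      have h3 : K'.index = Nat.card (P : Subgroup A) := hc.symm.index_eq_card
      rw [← h3, index_eq_card]
      exact orderOf_dvd_natCard _
    obtain ⟨n, hn⟩ := P.2.exists_card_eq
    rw [hn] at h2
    have h4 : (orderOf ((⟨a, ha⟩ : A) : A ⧸ K')).Coprime (p ^ n) :=
      Nat.Coprime.pow_right n (Nat.Coprime.coprime_dvd_left h1 hcop)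
    exact Nat.eq_one_of_dvd_coprimes h4 dvd_rfl h2

/-- `N_G(K) ≤ A` when `A` acts without fixed points on `N`. -/
theorem normalizer_le_of_pNilData [Finite G] {p : ℕ} [Fact p.Prime] {N A K S : Subgroup G}
    [hNn : N.Normal] (hN : IsPGroup p N) (hA : A.IsComplement' N) (d : PNilData p A K S)
    (hC : ∀ n : G, n ∈ N → (∀ a : G, a ∈ A → a * n * a⁻¹ = n) → n = 1) :
    normalizer (K : Set G) ≤ A := by
  have hp : p.Prime := Fact.out
  have hdisj : ∀ x : G, x ∈ A → x ∈ N → x = 1 := fun x h1 h2 =>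
    (Subgroup.disjoint_def.1 hA.disjoint) h1 h2
  -- the centralizer of `K` in `N`
  set D : Subgroup G := N ⊓ centralizer (K : Set G) with hD
  have hDp : IsPGroup p D := hN.to_le inf_le_left
  have hAD : ∀ a ∈ A, ∀ x ∈ D, a * x * a⁻¹ ∈ D := by
    intro a ha x hx
    refine ⟨hNn.conj_mem x hx.1 a, ?_⟩
    show a * x * a⁻¹ ∈ centralizer (K : Set G)
    rw [mem_centralizer_iff]
    intro k hk
    have hk' : a⁻¹ * k * a ∈ K := by
      have := (mem_normalizer_iff.1 (d.hnorm (A.inv_mem ha)) k).1 hk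
      simpa using this
    have h1 := (mem_centralizer_iff.1 hx.2) (a⁻¹ * k * a) hk'
    calc k * (a * x * a⁻¹) = a * ((a⁻¹ * k * a) * x) * a⁻¹ := by group
      _ = a * (x * (a⁻¹ * k * a)) * a⁻¹ := by rw [h1]
      _ = a * x * a⁻¹ * k := by group
  have hDbot : D = ⊥ := by
    by_contra hne
    letI : MulAction S D :=
      { smul := fun s x => ⟨s.1 * x.1 * s.1⁻¹, hAD s.1 (d.hSA s.2) x.1 x.2⟩
        one_smul := fun x => Subtype.ext (by
          show (1 : G) * x.1 * (1 : G)⁻¹ = x.1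
          simp)
        mul_smul := fun s t x => Subtype.ext (by
          show (s.1 * t.1) * x.1 * (s.1 * t.1)⁻¹ = s.1 * (t.1 * x.1 * t.1⁻¹) * s.1⁻¹
          group) }
    have hcard : p ∣ Nat.card D := by
      obtain ⟨n, hn⟩ := hDp.exists_card_eq
      rw [hn]
      apply dvd_pow_self
      rintro rfl
      rw [pow_zero] at hn
      exact hne ((card_eq_one).1 hn)
    have hfix : (1 : D) ∈ MulAction.fixedPoints S D := by
      intro s
      apply Subtype.ext
      show s.1 * (1 : G) * s.1⁻¹ = 1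
      simp
    obtain ⟨b, hb, hb1⟩ := d.hS.exists_fixed_point_of_prime_dvd_card_of_fixed_point D hcard hfix
    apply hb1
    apply Subtype.ext
    symm
    apply hC b.1 b.2.1
    intro a ha
    obtain ⟨k, hk, s, hs, rfl⟩ := d.hmul a ha
    have h1 : s * b.1 * s⁻¹ = b.1 := congrArg Subtype.val (hb ⟨s, hs⟩)
    have h2 : k * b.1 = b.1 * k := (mem_centralizer_iff.1 b.2.2) k hk
    calc k * s * b.1 * (k * s)⁻¹ = k * (s * b.1 * s⁻¹) * k⁻¹ := by group
      _ = k * b.1 * k⁻¹ := by rw [h1]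
      _ = b.1 := by rw [h2]; group
  intro g hg
  obtain ⟨⟨a, n⟩, han⟩ := hA.2 g
  have han' : a.1 * n.1 = g := han
  have hn : n.1 ∈ normalizer (K : Set G) := by
    have : n.1 = a.1⁻¹ * g := by rw [← han']; group
    rw [this]
    exact mul_mem (inv_mem (d.hnorm a.2)) hg
  have hnD : n.1 ∈ D := by
    refine ⟨n.2, ?_⟩
    show n.1 ∈ centralizer (K : Set G)
    rw [mem_centralizer_iff]
    intro k hk
    have h1 : n.1 * k * n.1⁻¹ * k⁻¹ ∈ K :=
      K.mul_mem ((mem_normalizer_iff.1 hn k).1 hk) (K.inv_mem hk)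
    have h2 : n.1 * k * n.1⁻¹ * k⁻¹ ∈ N := by
      have : n.1 * k * n.1⁻¹ * k⁻¹ = n.1 * (k * n.1⁻¹ * k⁻¹) := by group
      rw [this]
      exact N.mul_mem n.2 (hNn.conj_mem _ (N.inv_mem n.2) k)
    have h3 := hdisj _ (d.hKA h1) h2
    calc k * n.1 = (n.1 * k * n.1⁻¹ * k⁻¹)⁻¹ * (n.1 * k) := by group
      _ = n.1 * k := by rw [h3]; simp
  rw [hDbot, mem_bot] at hnD
  rw [← han', hnD, mul_one]
  exact a.2

/-- The normal `p`-complements of two complements of `N` generate the same subgroup with `N`. -/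
theorem le_sup_of_pNilData [Finite G] {p : ℕ} [Fact p.Prime] {N A K S A₁ K₁ S₁ : Subgroup G}
    [hNn : N.Normal] (hA : A.IsComplement' N) (d : PNilData p A K S)
    (d₁ : PNilData p A₁ K₁ S₁) : K₁ ≤ N ⊔ K := by
  intro k hk
  obtain ⟨⟨a, n⟩, han⟩ := hA.2 k
  have han' : a.1 * n.1 = k := han
  have hdisj : ∀ x : G, x ∈ A → x ∈ N → x = 1 := fun x h1 h2 =>
    (Subgroup.disjoint_def.1 hA.disjoint) h1 h2
  have hko : (orderOf k).Coprime p := by
    have h1 : orderOf k ∣ Nat.card K₁ := by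
      have := orderOf_dvd_natCard (⟨k, hk⟩ : K₁)
      rwa [Subgroup.orderOf_mk] at this
    exact Nat.Coprime.coprime_dvd_left h1 d₁.hK
  -- `a ^ m ∈ N`
  have hpow : ∀ m : ℕ, a.1 ^ m * (k ^ m)⁻¹ ∈ N := by
    intro m
    have h1 : ((a.1 ^ m * (k ^ m)⁻¹ : G) : G ⧸ N) = 1 := by
      have h2 : ((k : G) : G ⧸ N) = ((a.1 : G) : G ⧸ N) := by
        rw [← han', QuotientGroup.mk_mul, (QuotientGroup.eq_one_iff n.1).2 n.2, mul_one]
      rw [QuotientGroup.mk_mul, QuotientGroup.mk_inv, QuotientGroup.mk_pow, QuotientGroup.mk_pow,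
        h2, mul_inv_cancel]
    exact (QuotientGroup.eq_one_iff _).1 h1
  have ha1 : a.1 ^ orderOf k = 1 := by
    have := hpow (orderOf k)
    rw [pow_orderOf_eq_one, inv_one, mul_one] at this
    exact hdisj _ (A.pow_mem a.2 _) this
  have hao : (orderOf a.1).Coprime p :=
    Nat.Coprime.coprime_dvd_left (orderOf_dvd_of_pow_eq_one ha1) hko
  have haK : a.1 ∈ K := d.hmem a.1 a.2 hao
  rw [← han']
  exact mul_mem (mem_sup_right haK) (mem_sup_left n.2)

theorem card_sup_of_pNilData [Finite G] {p : ℕ} [Fact p.Prime] {N A K S : Subgroup G}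
    [hNn : N.Normal] (hN : IsPGroup p N) (d : PNilData p A K S) :
    Nat.card (N ⊔ K : Subgroup G) = Nat.card N * Nat.card K := by
  obtain ⟨n, hn⟩ := hN.exists_card_eq
  have hcop : (Nat.card N).Coprime (Nat.card K) := by
    rw [hn]
    exact (Nat.Coprime.pow_right n d.hK).symm
  apply Nat.dvd_antisymm
  · exact Cfsg.Agent.H20.card_sup_dvd_rel N K (by rw [normalizer_eq_top]; exact le_top)
  · exact Nat.Coprime.mul_dvd_of_dvd_of_dvd hcop (card_dvd_of_le le_sup_left)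
      (card_dvd_of_le le_sup_right)

theorem conj_of_pNilData [Finite G] {p : ℕ} [Fact p.Prime] {N A K S A₁ K₁ S₁ : Subgroup G}
    [hNn : N.Normal] (hN : IsPGroup p N) (hA : A.IsComplement' N) (hA₁ : A₁.IsComplement' N)
    (d : PNilData p A K S) (d₁ : PNilData p A₁ K₁ S₁)
    (hC₁ : ∀ n : G, n ∈ N → (∀ a : G, a ∈ A₁ → a * n * a⁻¹ = n) → n = 1) :
    ∃ n : G, n ∈ N ∧ A₁ = A.map (MulAut.conj n).toMonoidHom := by
  have hp : p.Prime := Fact.out
  set X : Subgroup G := N ⊔ K with hX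
  have hX₁ : N ⊔ K₁ = X := le_antisymm (sup_le le_sup_left (le_sup_of_pNilData hA d d₁))
    (sup_le le_sup_left (le_sup_of_pNilData hA₁ d₁ d))
  have hNX : N ≤ X := le_sup_left
  have hKX : K ≤ X := le_sup_right
  have hK₁X : K₁ ≤ X := hX₁ ▸ le_sup_right
  have hcX : Nat.card X = Nat.card N * Nat.card K := card_sup_of_pNilData hN d
  have hcX₁ : Nat.card X = Nat.card N * Nat.card K₁ := by
    rw [← hX₁]; exact card_sup_of_pNilData hN d₁
  obtain ⟨m, hm⟩ := hN.exists_card_eq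
  have hcomp : ∀ L : Subgroup G, L ≤ X → (Nat.card L).Coprime p →
      Nat.card X = Nat.card N * Nat.card L →
      IsComplement' (N.subgroupOf X) (L.subgroupOf X) := by
    intro L hL hLp hc
    apply isComplement'_of_coprime
    · rw [Cfsg.Agent.H20.card_subgroupOf, Cfsg.Agent.H20.card_subgroupOf, inf_eq_left.2 hNX, inf_eq_left.2 hL, hc]
    · rw [Cfsg.Agent.H20.card_subgroupOf, Cfsg.Agent.H20.card_subgroupOf, inf_eq_left.2 hNX, inf_eq_left.2 hL, hm]
      exact (Nat.Coprime.pow_right m hLp).symm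
  have h1 := hcomp K hKX d.hK hcX
  have h2 := hcomp K₁ hK₁X d₁.hK hcX₁
  have hNp : IsPGroup p (N.subgroupOf X) := hN.comap_subtype
  haveI : Group.IsNilpotent (N.subgroupOf X) := hNp.isNilpotent
  have hcop : (Nat.card (N.subgroupOf X)).Coprime (N.subgroupOf X).index := by
    rw [h1.symm.index_eq_card, Cfsg.Agent.H20.card_subgroupOf, Cfsg.Agent.H20.card_subgroupOf, inf_eq_left.2 hNX,
      inf_eq_left.2 hKX, hm]
    exact (Nat.Coprime.pow_right m d.hK).symm
  obtain ⟨x, hx⟩ := Cfsg.H1.sz_conj (N.subgroupOf X) (K.subgroupOf X) (K₁.subgroupOf X) hcop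
    (Or.inl inferInstance) h1 h2
  have hx' : MulAut.conj (x : G) • K = K₁ := Cfsg.H1.conj_of_subgroupOf hKX hK₁X x hx
  have hxm : (x : G) ∈ (N ⊔ K : Subgroup G) := x.2
  rw [← SetLike.mem_coe, normal_mul] at hxm
  obtain ⟨n, hn, k, hk, hnk⟩ := Set.mem_mul.1 hxm
  have hnK : MulAut.conj n • K = K₁ := by
    rw [← hx', ← hnk, Cfsg.H1.conj_mul_smul, conj_smul_eq_self_of_mem hk]
  refine ⟨n, hn, ?_⟩
  have hle : A.map (MulAut.conj n).toMonoidHom ≤ A₁ := by
    refine le_trans ?_ (normalizer_le_of_pNilData hN hA₁ d₁ hC₁)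
    rintro _ ⟨a, ha, rfl⟩
    show n * a * n⁻¹ ∈ normalizer (K₁ : Set G)
    rw [mem_normalizer_iff]
    intro h
    rw [← hnK, Cfsg.H1.mem_conj_smul_iff, Cfsg.H1.mem_conj_smul_iff,
      mem_normalizer_iff.1 (d.hnorm ha) (n⁻¹ * h * n)]
    have : n⁻¹ * (n * a * n⁻¹ * h * (n * a * n⁻¹)⁻¹) * n = a * (n⁻¹ * h * n) * a⁻¹ := by group
    rw [this]
  symm
  apply eq_of_le_of_card_ge hle
  rw [card_map_of_injective (MulAut.conj n).injective]
  have e1 := hA.card_mul_card
  have e2 := hA₁.card_mul_card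
  have hpos : 0 < Nat.card N := Nat.card_pos
  exact (Nat.eq_of_mul_eq_mul_right hpos (e2.trans e1.symm)).le

end Cfsg.Agent.Lib.Helper21
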