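import Mathlib

set_option autoImplicit false

/-! Counting classes of `π`-elements through commuting pairs; `k_π(G) ≤ k_π(N) k_π(G/N)`. -/

namespace Cfsg.Agent.Lib.Helper21

open Subgroup

def PiEl {G : Type*} [Group G] (π : Set ℕ) (x : G) : Prop := ∀ q : ℕ, q.Prime → q ∣ orderOf x → q ∈ π

def PiEl' {G : Type*} [Group G] (π : Set ℕ) (x : G) : Prop := ∀ q : ℕ, q.Prime → q ∣ orderOf x → q ∉ π

theorem exists_pi_decomp {G : Type*} [Group G] [Finite G] (π : Set ℕ) (g : G) :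
    ∃ u v : G, u ∈ zpowers g ∧ v ∈ zpowers g ∧ g = u * v ∧ PiEl π u ∧ PiEl' π v := by
  classical
  set o := orderOf g with ho
  have ho0 : o ≠ 0 := (orderOf_pos g).ne'
  set A := ∏ p ∈ o.primeFactors.filter (· ∈ π), p ^ o.factorization p with hA
  set B := ∏ p ∈ o.primeFactors.filter (fun p => ¬ p ∈ π), p ^ o.factorization p with hB
  have hAB : A * B = o := by
    rw [hA, hB, Finset.prod_filter_mul_prod_filter_not]
    have := Nat.prod_factorization_pow_eq_self ho0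
    rwa [Finsupp.prod, Nat.support_factorization] at this
  have hAπ : ∀ q : ℕ, q.Prime → q ∣ A → q ∈ π := by
    intro q hq hd
    obtain ⟨p, hp, hqp⟩ := (Prime.dvd_finsetProd_iff hq.prime _).1 hd
    rw [Finset.mem_filter, Nat.mem_primeFactors] at hp
    have := (Nat.prime_dvd_prime_iff_eq hq hp.1.1).1 (hq.dvd_of_dvd_pow hqp)
    rw [this]; exact hp.2
  have hBπ : ∀ q : ℕ, q.Prime → q ∣ B → q ∉ π := by
    intro q hq hd
    obtain ⟨p, hp, hqp⟩ := (Prime.dvd_finsetProd_iff hq.prime _).1 hd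
    rw [Finset.mem_filter, Nat.mem_primeFactors] at hp
    have := (Nat.prime_dvd_prime_iff_eq hq hp.1.1).1 (hq.dvd_of_dvd_pow hqp)
    rw [this]; exact hp.2
  have hcop : Nat.Coprime A B := Nat.coprime_of_dvd (fun q hq h1 h2 => hBπ q hq h2 (hAπ q hq h1))
  obtain ⟨a, b, hab⟩ := Nat.isCoprime_iff_coprime.mpr hcop
  refine ⟨g ^ (b * B), g ^ (a * A), ⟨_, rfl⟩, ⟨_, rfl⟩, ?_, ?_, ?_⟩
  · rw [← zpow_add, add_comm, hab, zpow_one]
  · intro q hq hd
    apply hAπ q hq
    apply hd.trans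
    apply orderOf_dvd_of_pow_eq_one
    rw [← zpow_natCast, ← zpow_mul, ← orderOf_dvd_iff_zpow_eq_one, ← ho, ← hAB]
    push_cast
    exact ⟨b, by ring⟩
  · intro q hq hd
    apply hBπ q hq
    apply hd.trans
    apply orderOf_dvd_of_pow_eq_one
    rw [← zpow_natCast, ← zpow_mul, ← orderOf_dvd_iff_zpow_eq_one, ← ho, ← hAB]
    push_cast
    exact ⟨a, by ring⟩

theorem pi_unique {G : Type*} [Group G] [Finite G] (π : Set ℕ) {x x' v v' : G} (hx : PiEl π x)
    (hx' : PiEl π x') (hv : PiEl' π v) (hv' : PiEl' π v') (hc : Commute x v) (hc' : Commute x' v')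
    (h : x * v = x' * v') : x = x' ∧ v = v' := by
  set a := orderOf v * orderOf v' with ha
  set L := orderOf x * orderOf x' with hL
  have h1 : x ^ a = x' ^ a := by
    have e1 : (x * v) ^ a = x ^ a := by
      rw [hc.mul_pow, ha, pow_mul v, pow_orderOf_eq_one, one_pow, mul_one]
    have e2 : (x' * v') ^ a = x' ^ a := by
      rw [hc'.mul_pow, ha, mul_comm (orderOf v), pow_mul v', pow_orderOf_eq_one, one_pow, mul_one]
    rw [← e1, ← e2, h]
  have hcop : Nat.Coprime a L := by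
    apply Nat.coprime_of_dvd
    intro q hq h1 h2
    have hq1 : q ∉ π := by
      rcases (Nat.Prime.dvd_mul hq).1 h1 with h | h
      · exact hv q hq h
      · exact hv' q hq h
    rcases (Nat.Prime.dvd_mul hq).1 h2 with h | h
    · exact hq1 (hx q hq h)
    · exact hq1 (hx' q hq h)
  obtain ⟨s, t, hst⟩ := Nat.isCoprime_iff_coprime.mpr hcop
  have key : ∀ y : G, y ^ L = 1 → y = (y ^ a) ^ s := by
    intro y hy
    have : y ^ (s * (a : ℤ) + t * (L : ℤ)) = (y ^ a) ^ s := by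
      rw [zpow_add, mul_comm s, zpow_mul, zpow_natCast, mul_comm t, zpow_mul, zpow_natCast, hy, one_zpow,
        mul_one]
    rw [hst, zpow_one] at this
    exact this
  have hxx : x = x' := by
    rw [key x (by rw [hL, pow_mul, pow_orderOf_eq_one, one_pow]),
      key x' (by rw [hL, mul_comm, pow_mul, pow_orderOf_eq_one, one_pow]), h1]
  refine ⟨hxx, ?_⟩
  rw [hxx] at h
  exact mul_left_cancel h

/-- the classes of `π`-elements, as in the statements -/
abbrev PiClasses (X : Type*) [Group X] (π : Set ℕ) : Type _ :=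
  {C : ConjClasses X // ∀ q : ℕ, q.Prime → (∃ g : X, ConjClasses.mk g = C ∧ q ∣ orderOf g) → q ∈ π}

abbrev PiPairs (X : Type*) [Group X] (π : Set ℕ) : Type _ :=
  {p : X × X // PiEl π p.1 ∧ Commute p.1 p.2}

theorem orderOf_conj' {X : Type*} [Group X] (c a : X) : orderOf (c * a * c⁻¹) = orderOf a :=
  (MulAut.conj c).orderOf_eq a

theorem card_piPairs (X : Type*) [Group X] [Finite X] (π : Set ℕ) :
    Nat.card (PiPairs X π) = Nat.card (PiClasses X π) * Nat.card X := by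
  classical
  have hwd : ∀ p : PiPairs X π, ∀ q : ℕ, q.Prime →
      (∃ g : X, ConjClasses.mk g = ConjClasses.mk p.1.1 ∧ q ∣ orderOf g) → q ∈ π := by
    rintro p q hq ⟨g, hg, hd⟩
    obtain ⟨c, hc⟩ := isConj_iff.1 (ConjClasses.mk_eq_mk_iff_isConj.1 hg)
    apply p.2.1 q hq
    rw [← hc, orderOf_conj']
    exact hd
  let f : PiPairs X π → PiClasses X π := fun p => ⟨ConjClasses.mk p.1.1, hwd p⟩
  haveI : Fintype (PiClasses X π) := Fintype.ofFinite _
  rw [← Nat.card_congr (Equiv.sigmaFiberEquiv f), Nat.card_sigma]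
  have hfib : ∀ s : PiClasses X π, Nat.card {t : PiPairs X π // f t = s} = Nat.card X := by
    rintro ⟨C, hC⟩
    obtain ⟨x0, rfl⟩ := ConjClasses.mk_surjective C
    have hex : ∀ x : X, ∃ c : X, ConjClasses.mk x = ConjClasses.mk x0 → c * x0 * c⁻¹ = x := by
      intro x
      by_cases h : ConjClasses.mk x = ConjClasses.mk x0
      · obtain ⟨c, hc⟩ := isConj_iff.1 (ConjClasses.mk_eq_mk_iff_isConj.1 h.symm)
        exact ⟨c, fun _ => hc⟩
      · exact ⟨1, fun h' => absurd h' h⟩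
    choose γ hγ using hex
    have hmk : ∀ h : X, ConjClasses.mk (h * x0 * h⁻¹) = ConjClasses.mk x0 := by
      intro h
      exact (ConjClasses.mk_eq_mk_iff_isConj.2 (isConj_iff.2 ⟨h, rfl⟩)).symm
    let φ : X → {t : PiPairs X π // f t = ⟨ConjClasses.mk x0, hC⟩} := fun h =>
      ⟨⟨(h * x0 * h⁻¹, h * (γ (h * x0 * h⁻¹))⁻¹), by
        refine ⟨fun q hq hd => hC q hq ⟨_, hmk h, hd⟩, ?_⟩
        have h1 := hγ _ (hmk h)
        show (h * x0 * h⁻¹) * (h * (γ (h * x0 * h⁻¹))⁻¹) = (h * (γ (h * x0 * h⁻¹))⁻¹) * (h * x0 * h⁻¹)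
        set c := γ (h * x0 * h⁻¹) with hc
        calc (h * x0 * h⁻¹) * (h * c⁻¹) = h * x0 * c⁻¹ := by group
          _ = h * c⁻¹ * (c * x0 * c⁻¹) := by group
          _ = h * c⁻¹ * (h * x0 * h⁻¹) := by rw [h1]⟩, Subtype.ext (hmk h)⟩
    symm
    apply Nat.card_congr
    refine Equiv.ofBijective φ ⟨?_, ?_⟩
    · intro h h' hh
      have h1 : (φ h).1.1 = (φ h').1.1 := by rw [hh]
      have h2 : h * x0 * h⁻¹ = h' * x0 * h'⁻¹ := congrArg Prod.fst h1
      have h3 : h * (γ (h * x0 * h⁻¹))⁻¹ = h' * (γ (h' * x0 * h'⁻¹))⁻¹ := congrArg Prod.snd h1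
      rw [h2] at h3
      exact mul_right_cancel h3
    · rintro ⟨⟨⟨x, y⟩, hxπ, hxy⟩, ht⟩
      have hx : ConjClasses.mk x = ConjClasses.mk x0 := congrArg Subtype.val ht
      have h1 := hγ x hx
      have h2 : y * γ x * x0 * (y * γ x)⁻¹ = x := by
        calc y * γ x * x0 * (y * γ x)⁻¹ = y * (γ x * x0 * (γ x)⁻¹) * y⁻¹ := by group
          _ = y * x * y⁻¹ := by rw [h1]
          _ = x := by
            have : x * y = y * x := hxy
            rw [← this]; group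
      refine ⟨y * γ x, ?_⟩
      apply Subtype.ext
      apply Subtype.ext
      show (y * γ x * x0 * (y * γ x)⁻¹, y * γ x * (γ (y * γ x * x0 * (y * γ x)⁻¹))⁻¹) = (x, y)
      rw [h2]
      simp
  rw [Finset.sum_congr rfl (fun s _ => hfib s), Finset.sum_const, Finset.card_univ, smul_eq_mul,
    Nat.card_eq_fintype_card (α := PiClasses X π)]

theorem card_piPairs_le {G : Type*} [Group G] [Finite G] (N : Subgroup G) [N.Normal] (π : Set ℕ) :
    Nat.card (PiPairs G π) ≤ Nat.card (PiPairs (G ⧸ N) π) * Nat.card (PiPairs N π) := by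
  classical
  choose P P' hP1 hP2 hP3 hP4 hP5 using exists_pi_decomp (G := G) π
  have hex1 : ∀ (x : G) (r : G ⧸ N), ∃ y0 : G, (∃ y : G, Commute x y ∧ (y : G ⧸ N) = r) →
      (Commute x y0 ∧ (y0 : G ⧸ N) = r) := by
    intro x r
    by_cases h : ∃ y : G, Commute x y ∧ (y : G ⧸ N) = r
    · obtain ⟨y, hy⟩ := h
      exact ⟨y, fun _ => hy⟩
    · exact ⟨1, fun h' => absurd h' h⟩
  choose c hc using hex1
  let nf : G → G → G := fun x y => (c x (y : G ⧸ N))⁻¹ * y
  let mf : G → G → G := fun x y => P (nf x y)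
  let wf : G → G → G := fun x y => x * P' (nf x y)
  let nf' : G → G → G := fun x y => (c (mf x y) (x : G ⧸ N))⁻¹ * wf x y
  have A1 : ∀ x y : G, Commute x y → nf x y ∈ N ∧ Commute x (nf x y) := by
    intro x y hxy
    obtain ⟨h1, h2⟩ := hc x (y : G ⧸ N) ⟨y, hxy, rfl⟩
    exact ⟨QuotientGroup.eq.1 h2, h1.inv_right.mul_right hxy⟩
  have hpw : ∀ (x n u : G), Commute x n → u ∈ zpowers n → Commute x u := by
    rintro x n _ h ⟨k, rfl⟩
    exact h.zpow_right k
  have hpN : ∀ (n u : G), n ∈ N → u ∈ zpowers n → u ∈ N := by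
    rintro n _ h ⟨k, rfl⟩
    exact N.zpow_mem h k
  have A2 : ∀ x y : G, Commute x y → mf x y ∈ N ∧ nf' x y ∈ N ∧ Commute (mf x y) (nf' x y) ∧
      c (mf x y) (x : G ⧸ N) * nf' x y = wf x y := by
    intro x y hxy
    obtain ⟨h1, h2⟩ := A1 x y hxy
    have hm : mf x y ∈ N := hpN _ _ h1 (hP1 _)
    have hv : P' (nf x y) ∈ N := hpN _ _ h1 (hP2 _)
    have hmw : Commute (mf x y) (wf x y) := by
      apply Commute.mul_right
      · exact (hpw x _ _ h2 (hP1 _)).symm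
      · exact (hpw _ _ _ (hpw _ _ _ (Commute.refl (nf x y)) (hP1 _)).symm (hP2 _))
    have hwq : ((wf x y : G) : G ⧸ N) = (x : G ⧸ N) := by
      show ((x * P' (nf x y) : G) : G ⧸ N) = x
      rw [QuotientGroup.mk_mul, (QuotientGroup.eq_one_iff _).2 hv, mul_one]
    obtain ⟨h3, h4⟩ := hc (mf x y) (x : G ⧸ N) ⟨wf x y, hmw, hwq⟩
    refine ⟨hm, QuotientGroup.eq.1 (h4.trans hwq.symm), h3.inv_right.mul_right hmw, ?_⟩
    show c (mf x y) (x : G ⧸ N) * ((c (mf x y) (x : G ⧸ N))⁻¹ * wf x y) = wf x y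
    rw [mul_inv_cancel_left]
  let F : PiPairs G π → PiPairs (G ⧸ N) π × PiPairs N π := fun p =>
    (⟨((p.1.1 : G ⧸ N), (p.1.2 : G ⧸ N)),
      fun q hq hd => p.2.1 q hq (hd.trans (orderOf_map_dvd (QuotientGroup.mk' N) p.1.1)),
      p.2.2.map (QuotientGroup.mk' N)⟩,
     ⟨(⟨mf p.1.1 p.1.2, (A2 _ _ p.2.2).1⟩, ⟨nf' p.1.1 p.1.2, (A2 _ _ p.2.2).2.1⟩),
      fun q hq hd => hP4 (nf p.1.1 p.1.2) q hq (by rwa [Subgroup.orderOf_mk] at hd),
      Subtype.ext (A2 _ _ p.2.2).2.2.1⟩)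
  have hF : Function.Injective F := by
    rintro ⟨⟨x, y⟩, hx, hxy⟩ ⟨⟨x₁, y₁⟩, hx₁, hxy₁⟩ h
    have e1 : (x : G ⧸ N) = x₁ := congrArg (fun t => t.1.1.1) h
    have e2 : (y : G ⧸ N) = y₁ := congrArg (fun t => t.1.1.2) h
    have e3 : mf x y = mf x₁ y₁ := congrArg (fun t => (t.2.1.1 : G)) h
    have e4 : nf' x y = nf' x₁ y₁ := congrArg (fun t => (t.2.1.2 : G)) h
    have e5 : wf x y = wf x₁ y₁ := by
      rw [← (A2 x y hxy).2.2.2, ← (A2 x₁ y₁ hxy₁).2.2.2, e1, e3, e4]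
    obtain ⟨e6, e7⟩ := pi_unique π hx hx₁ (hP5 _) (hP5 _) (hpw x _ _ (A1 x y hxy).2 (hP2 _))
      (hpw x₁ _ _ (A1 x₁ y₁ hxy₁).2 (hP2 _)) e5
    replace e6 : x = x₁ := e6
    have e8 : nf x y = nf x₁ y₁ := by
      rw [hP3 (nf x y), hP3 (nf x₁ y₁), e7]
      have : P (nf x y) = P (nf x₁ y₁) := e3
      rw [this]
    have e9 : y = y₁ := by
      have h1 : (c x (y : G ⧸ N))⁻¹ * y = (c x₁ (y₁ : G ⧸ N))⁻¹ * y₁ := e8
      rw [e6, e2] at h1
      exact mul_left_cancel h1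
    subst e6
    subst e9
    rfl
  calc Nat.card (PiPairs G π) ≤ Nat.card (PiPairs (G ⧸ N) π × PiPairs N π) :=
        Nat.card_le_card_of_injective F hF
    _ = _ := Nat.card_prod _ _

theorem card_piClasses_le {G : Type*} [Group G] [Finite G] (N : Subgroup G) [N.Normal] (π : Set ℕ) :
    Nat.card (PiClasses G π) ≤ Nat.card (PiClasses N π) * Nat.card (PiClasses (G ⧸ N) π) := by
  have h := card_piPairs_le N π
  rw [card_piPairs, card_piPairs, card_piPairs, Subgroup.card_eq_card_quotient_mul_card_subgroup N] at h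
  have hpos : 0 < Nat.card (G ⧸ N) * Nat.card N := Nat.mul_pos Nat.card_pos Nat.card_pos
  apply Nat.le_of_mul_le_mul_right _ hpos
  calc _ ≤ _ := h
    _ = _ := by ring

end Cfsg.Agent.Lib.Helper21
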