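import Mathlib
import Cfsg.Prelude.Def_Solvable
import Cfsg.Agent.H20.Sn
import Cfsg.Agent.H9.Cores
import Cfsg.Agent.H1.Fit
import Cfsg.Agent.Lib.Helper22.FittingSub

/-!
# The subnormalizer of a `p`-subgroup (helper21)
-/

set_option autoImplicit false
set_option linter.style.haveILetI false

namespace Cfsg.Agent.Lib.Helper21

open Subgroup Cfsg.Agent.H20

variable {G : Type*} [Group G]

/-- `O_p(X)` viewed inside `G`. -/
def opIn (p : ℕ) (X : Subgroup G) : Subgroup G := (Cfsg.pCore p X).map X.subtype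

theorem opIn_le (p : ℕ) (X : Subgroup G) : opIn p X ≤ X := by
  rintro _ ⟨x, -, rfl⟩
  exact x.2

theorem opIn_isPGroup (p : ℕ) (X : Subgroup G) : IsPGroup p (opIn p X) :=
  (Cfsg.H1.pCore_isPGroup (G := X) p).map _

theorem le_normalizer_opIn (p : ℕ) (X : Subgroup G) : X ≤ normalizer (opIn p X : Set G) := by
  intro x hx
  have hn : (Cfsg.pCore p X).Normal := Cfsg.H1.pCore_normal p
  have key : ∀ y : G, y ∈ X → ∀ n ∈ opIn p X, y * n * y⁻¹ ∈ opIn p X := by
    rintro y hy _ ⟨n, hn', rfl⟩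
    exact ⟨⟨y, hy⟩ * n * ⟨y, hy⟩⁻¹, hn.conj_mem n hn' _, rfl⟩
  rw [mem_normalizer_iff]
  intro n
  constructor
  · exact key x hx n
  · intro h
    have := key x⁻¹ (X.inv_mem hx) _ h
    simpa [mul_assoc] using this

theorem le_opIn {p : ℕ} {X R : Subgroup G} (hR : IsPGroup p R) (hRX : R ≤ X)
    (hX : X ≤ normalizer (R : Set G)) : R ≤ opIn p X := by
  have h1 : (R.subgroupOf X).Normal := (normalIn_iff hRX).1 ⟨hRX, hX⟩
  have h2 : IsPGroup p (R.subgroupOf X) := hR.comap_subtype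
  have := Cfsg.H1.le_pCore h1 h2
  intro r hr
  exact ⟨⟨r, hRX hr⟩, this (mem_subgroupOf.2 hr), rfl⟩

theorem sn_le_opIn [Finite G] {p : ℕ} {X H : Subgroup G} (hH : IsPGroup p H) (h : Sn H X) :
    H ≤ opIn p X := by
  have h1 : (H.subgroupOf X).IsSubnormal := (isSubnormal_subgroupOf_iff_sn h.le).2 h
  have h2 : IsPGroup p (H.subgroupOf X) := hH.comap_subtype
  have := Cfsg.H9.subnormal_le_pCore (p := p) h1 h2
  intro r hr
  exact ⟨⟨r, h.le hr⟩, this (mem_subgroupOf.2 hr), rfl⟩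

theorem sn_of_isPGroup [Finite G] {p : ℕ} [Fact p.Prime] {H R : Subgroup G} (hR : IsPGroup p R)
    (h : H ≤ R) : Sn H R := by
  haveI : Group.IsNilpotent R := hR.isNilpotent
  exact (isSubnormal_subgroupOf_iff_sn h).1
    (Cfsg.Agent.Lib.Helper22.isSubnormal_of_isNilpotent _)

/-- part (i) -/
theorem sn_sup_zpowers_iff [Finite G] (p : ℕ) [Fact p.Prime] (H : Subgroup G) (hH : IsPGroup p H)
    (g : G) :
    Sn H (H ⊔ zpowers g) ↔ ∃ R : Subgroup G, H ≤ R ∧ opIn p (normalizer (R : Set G)) = R ∧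
      g ∈ normalizer (R : Set G) := by
  constructor
  · intro h
    -- the family of `p`-subgroups
    let 𝓡 : Set (Subgroup G) := {R | IsPGroup p R ∧ H ≤ R ∧ g ∈ normalizer (R : Set G)}
    have hne : 𝓡.Nonempty := by
      refine ⟨opIn p (H ⊔ zpowers g), opIn_isPGroup _ _, sn_le_opIn hH h, ?_⟩
      exact le_normalizer_opIn p _ (le_sup_right (a := H) (mem_zpowers g))
    obtain ⟨R, hR, hmax⟩ := (Set.toFinite 𝓡).exists_maximal hne
    refine ⟨R, hR.2.1, ?_, hR.2.2⟩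
    have hle : R ≤ opIn p (normalizer (R : Set G)) := le_opIn hR.1 le_normalizer le_rfl
    have hmem : opIn p (normalizer (R : Set G)) ∈ 𝓡 :=
      ⟨opIn_isPGroup _ _, hR.2.1.trans hle, le_normalizer_opIn p _ hR.2.2⟩
    exact le_antisymm (hmax hmem hle) hle
  · rintro ⟨R, hHR, hR, hg⟩
    have hRp : IsPGroup p R := hR ▸ opIn_isPGroup _ _
    have hX : H ⊔ zpowers g ≤ normalizer (R : Set G) :=
      sup_le (hHR.trans le_normalizer) ((zpowers_le).2 hg)
    have h1 : Sn H (R ⊓ (H ⊔ zpowers g)) :=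
      sn_of_isPGroup (hRp.to_le inf_le_left) (le_inf hHR le_sup_left)
    have h2 : NormalIn (R ⊓ (H ⊔ zpowers g)) (normalizer (R : Set G) ⊓ (H ⊔ zpowers g)) :=
      NormalIn.inf ⟨le_normalizer, le_rfl⟩ _
    rw [inf_eq_right.2 hX] at h2
    exact h1.trans h2.sn

/-- The intersection of the Sylow subgroups containing `H`. -/
def sylInf (p : ℕ) (H : Subgroup G) : Subgroup G :=
  sInf {K : Subgroup G | ∃ Q : Sylow p G, H ≤ (Q : Subgroup G) ∧ K = (Q : Subgroup G)}

theorem le_sylInf (p : ℕ) (H : Subgroup G) : H ≤ sylInf p H := by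
  refine le_sInf ?_
  rintro _ ⟨Q, hQ, rfl⟩
  exact hQ

theorem sylInf_isPGroup [Finite G] {p : ℕ} [Fact p.Prime] {H : Subgroup G} (hH : IsPGroup p H) :
    IsPGroup p (sylInf p H) := by
  obtain ⟨Q, hQ⟩ := hH.exists_le_sylow
  exact Q.2.to_le (sInf_le ⟨Q, hQ, rfl⟩)

theorem sylInf_mono (p : ℕ) {H R : Subgroup G} (h : H ≤ R) : sylInf p H ≤ sylInf p R := by
  refine le_sInf ?_
  rintro _ ⟨Q, hQ, rfl⟩
  exact sInf_le ⟨Q, h.trans hQ, rfl⟩

theorem sylInf_eq_of_radical [Finite G] {p : ℕ} [Fact p.Prime] {R : Subgroup G}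
    (hR : opIn p (normalizer (R : Set G)) = R) : sylInf p R = R := by
  have hRp : IsPGroup p R := hR ▸ opIn_isPGroup _ _
  set J := sylInf p R with hJ
  have hRJ : R ≤ J := le_sylInf p R
  have hJp : IsPGroup p J := sylInf_isPGroup hRp
  -- `J ∩ N ≤ R`
  have hJN : J ⊓ normalizer (R : Set G) ≤ R := by
    intro x hx
    rw [← hR]
    refine ⟨⟨x, hx.2⟩, ?_, rfl⟩
    rw [SetLike.mem_coe, Cfsg.H1.pCore_eq_iInf_sylow, mem_iInf]
    intro P
    -- a Sylow subgroup of `G` containing `P`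
    obtain ⟨Q, hQ⟩ := (P.2.map (normalizer (R : Set G)).subtype).exists_le_sylow
    have hRP : R ≤ (P : Subgroup _).map (normalizer (R : Set G)).subtype := by
      intro r hr
      have h1 : r ∈ opIn p (normalizer (R : Set G)) := hR.symm ▸ hr
      obtain ⟨r', hr', rfl⟩ := h1
      refine ⟨r', ?_, rfl⟩
      rw [SetLike.mem_coe, Cfsg.H1.pCore_eq_iInf_sylow, mem_iInf] at hr'
      exact hr' P
    have hxQ : x ∈ (Q : Subgroup G) := by
      have : J ≤ Q := sInf_le ⟨Q, hRP.trans hQ, rfl⟩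
      exact this hx.1
    -- `Q ∩ N = P`
    have hPle : (P : Subgroup _) ≤ (Q : Subgroup G).subgroupOf (normalizer (R : Set G)) := by
      intro y hy
      exact mem_subgroupOf.2 (hQ ⟨y, hy, rfl⟩)
    have hQp : IsPGroup p ((Q : Subgroup G).subgroupOf (normalizer (R : Set G))) :=
      Q.2.comap_subtype
    have := P.3 hQp hPle
    rw [← this]
    exact mem_subgroupOf.2 hxQ
  by_contra hne
  haveI : Group.IsNilpotent J := hJp.isNilpotent
  have hlt : R.subgroupOf J < ⊤ := by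
    rw [lt_top_iff_ne_top]
    intro h
    rw [subgroupOf_eq_top] at h
    exact hne (le_antisymm h hRJ)
  have h2 := Group.normalizerCondition_of_isNilpotent (G := J) _ hlt
  obtain ⟨x, hx1, hx2⟩ := SetLike.exists_of_lt h2
  apply hx2
  rw [mem_subgroupOf]
  apply hJN
  refine ⟨x.2, ?_⟩
  rw [mem_normalizer_iff] at hx1
  show (x : G) ∈ normalizer (R : Set G)
  rw [mem_normalizer_iff]
  intro n
  constructor
  · intro hn
    have := (hx1 ⟨n, hRJ hn⟩).1 (mem_subgroupOf.2 hn)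
    exact mem_subgroupOf.1 this
  · intro hn
    have hnJ : n ∈ J := by
      have h3 : (x : G)⁻¹ * ((x : G) * n * (x : G)⁻¹) * (x : G) ∈ J :=
        J.mul_mem (J.mul_mem (J.inv_mem x.2) (hRJ hn)) x.2
      simpa [mul_assoc] using h3
    have := (hx1 ⟨n, hnJ⟩).2 (mem_subgroupOf.2 hn)
    exact mem_subgroupOf.1 this

/-- part (ii) -/
theorem sn_sylInf_iff [Finite G] (p : ℕ) [Fact p.Prime] (H : Subgroup G) (hH : IsPGroup p H)
    (g : G) :
    Sn H (H ⊔ zpowers g) ↔ Sn (sylInf p H) (sylInf p H ⊔ zpowers g) := by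
  rw [sn_sup_zpowers_iff p H hH, sn_sup_zpowers_iff p _ (sylInf_isPGroup hH)]
  constructor
  · rintro ⟨R, h1, h2, h3⟩
    exact ⟨R, (sylInf_mono p h1).trans (sylInf_eq_of_radical h2).le, h2, h3⟩
  · rintro ⟨R, h1, h2, h3⟩
    exact ⟨R, (le_sylInf p H).trans h1, h2, h3⟩

end Cfsg.Agent.Lib.Helper21
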