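import Mathlib
import Cfsg.Agent.Lib.Helper21.TwistOrbits

/-!
# The number of solutions of `x² = 1` in a 2-group (helper21)
-/

set_option autoImplicit false
set_option linter.style.haveILetI false

namespace Cfsg.Agent.Lib.Helper21

open Cfsg Cfsg.Agent.CharLib Cfsg.Agent.H25
open scoped ComplexConjugate

universe u

variable {G : Type u} [Group G] [Fintype G] {V : Type*} [CommGroup V]

theorem fsInd_twist (π : G →* V) (hsq : ∀ v : V, v * v = 1) (a : V →* ℂˣ) (χ : G → ℂ) :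
    fsInd (twistFn π a χ) = fsInd χ := by
  unfold fsInd
  congr 1
  refine Finset.sum_congr rfl fun s _ => ?_
  unfold twistFn
  rw [map_mul, hsq, map_one, Units.val_one, one_mul]

theorem two_pow_dvd_card_sq_eq_one [Finite V] (hG : IsPGroup 2 G) (π : G →* V)
    (hπ : Function.Surjective π) (hsq : ∀ v : V, v * v = 1) (k : ℕ)
    (hV : 2 ^ (2 * k + 1) ≤ Nat.card V) :
    2 ^ (k + 1) ∣ Nat.card {x : G // x ^ 2 = 1} := by
  classical
  haveI : Fact (Nat.Prime 2) := ⟨Nat.prime_two⟩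
  letI := twistAction π hsq
  have hA : Nat.card (V →* ℂˣ) = Nat.card V := CommGroup.card_monoidHom_of_hasEnoughRootsOfUnity V ℂ
  haveI : Finite (V →* ℂˣ) := Nat.finite_of_card_ne_zero (by rw [hA]; exact Nat.card_pos.ne')
  -- the order of `V` is a power of two
  have hVp : IsPGroup 2 V := hG.of_surjective π hπ
  obtain ⟨d, hd⟩ := hVp.exists_card_eq
  obtain ⟨r, hr⟩ := hG.exists_card_eq
  have hdk : 2 * k + 1 ≤ d := by
    rw [hd] at hV
    exact (Nat.pow_le_pow_iff_right (by norm_num)).1 hV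
  -- integer valued data
  have hdeg : ∀ χ : IrrCharacter G, ∃ n : ℕ, 0 < n ∧ (χ : G → ℂ) 1 = n ∧ n ∣ Nat.card G :=
    fun χ => L.irr_degree_dvd χ
  choose deg hdeg0 hdeg1 hdeg2 using hdeg
  have hnu : ∀ χ : IrrCharacter G, ∃ z : ℤ, fsInd (χ : G → ℂ) = z := by
    intro χ
    rcases fsInd_cases χ with h | h | h
    · exact ⟨0, by rw [h]; simp⟩
    · exact ⟨1, by rw [h]; simp⟩
    · exact ⟨-1, by rw [h]; simp⟩
  choose nu hnu using hnu
  let F : IrrCharacter G → ℤ := fun χ => nu χ * deg χ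
  have hcount : ((Nat.card {x : G // x ^ 2 = 1} : ℕ) : ℤ) = ∑ χ : IrrCharacter G, F χ := by
    have h1 := card_sqrt_eq_sum (G := G) 1
    have h2 : (Finset.univ.filter (fun u : G => u * u = 1)).card =
        Nat.card {x : G // x ^ 2 = 1} := by
      rw [Nat.card_eq_fintype_card, Fintype.card_subtype]
      congr 1
      ext x
      simp [sq]
    rw [h2] at h1
    have h3 : (((Nat.card {x : G // x ^ 2 = 1} : ℕ) : ℤ) : ℂ) =
        ((∑ χ : IrrCharacter G, F χ : ℤ) : ℂ) := by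
      push_cast
      rw [h1]
      refine Finset.sum_congr rfl fun χ _ => ?_
      rw [hnu, hdeg1]
      show _ = ((nu χ * (deg χ : ℤ) : ℤ) : ℂ)
      push_cast
      rfl
    exact_mod_cast h3
  have hFinv : ∀ (a : V →* ℂˣ) (χ : IrrCharacter G), F (a • χ) = F χ := by
    intro a χ
    have h1 : nu (a • χ) = nu χ := by
      have : ((nu (a • χ) : ℤ) : ℂ) = nu χ := by
        rw [← hnu, ← hnu]
        exact fsInd_twist π hsq a χ.1
      exact_mod_cast this
    have h2 : deg (a • χ) = deg χ := by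
      have : ((deg (a • χ) : ℕ) : ℂ) = deg χ := by
        rw [← hdeg1, ← hdeg1, twist_smul_apply]
        simp
      exact_mod_cast this
    show nu (a • χ) * (deg (a • χ) : ℤ) = nu χ * (deg χ : ℤ)
    rw [h1, h2]
  have hmain : ((2 ^ (k + 1) : ℕ) : ℤ) ∣ ∑ χ : IrrCharacter G, F χ := by
    refine dvd_sum_of_orbits (A := V →* ℂˣ) F hFinv _ fun χ => ?_
    -- sizes
    have h1 : Nat.card (MulAction.stabilizer (V →* ℂˣ) χ) *
        Nat.card (MulAction.orbit (V →* ℂˣ) χ) = 2 ^ d := by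
      rw [← hd, ← hA, ← Subgroup.card_mul_index (MulAction.stabilizer (V →* ℂˣ) χ),
        MulAction.index_stabilizer, Nat.card_coe_set_eq]
    obtain ⟨s, hs, hs'⟩ := (Nat.dvd_prime_pow Nat.prime_two).1 (Dvd.intro _ h1)
    obtain ⟨e, he, he'⟩ := (Nat.dvd_prime_pow Nat.prime_two).1 (hr ▸ hdeg2 χ)
    have h2 : Nat.card (MulAction.orbit (V →* ℂˣ) χ) = 2 ^ (d - s) := by
      rw [hs'] at h1
      have h3 : 2 ^ s * 2 ^ (d - s) = 2 ^ d := by rw [← pow_add]; congr 1; omega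
      exact Nat.eq_of_mul_eq_mul_left (by positivity) (h1.trans h3.symm)
    have h4 : s ≤ 2 * e := by
      have := card_stabilizer_le π hπ hsq χ (deg χ) (hdeg1 χ)
      rw [hs', he', ← pow_mul] at this
      have := (Nat.pow_le_pow_iff_right (by norm_num)).1 this
      omega
    show ((2 ^ (k + 1) : ℕ) : ℤ) ∣ (Nat.card (MulAction.orbit (V →* ℂˣ) χ) : ℤ) *
      (nu χ * (deg χ : ℤ))
    rw [h2, he']
    have h5 : (2 ^ (k + 1) : ℕ) ∣ 2 ^ (d - s) * 2 ^ e := by
      rw [← pow_add]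
      exact pow_dvd_pow 2 (by omega)
    have h6 : ((2 ^ (k + 1) : ℕ) : ℤ) ∣ ((2 ^ (d - s) * 2 ^ e : ℕ) : ℤ) := by exact_mod_cast h5
    have h7 : ((2 ^ (d - s) : ℕ) : ℤ) * (nu χ * ((2 ^ e : ℕ) : ℤ)) =
        ((2 ^ (d - s) * 2 ^ e : ℕ) : ℤ) * nu χ := by push_cast; ring
    rw [h7]
    exact Dvd.dvd.mul_right h6 _
  rw [← hcount] at hmain
  exact_mod_cast hmain

end Cfsg.Agent.Lib.Helper21
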