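import Mathlib
import Cfsg.Agent.S0016

set_option autoImplicit false

namespace Cfsg.Agent.Lib.Helper21

theorem eq_of_card_eq_of_isCyclic {L : Type*} [Group L] [Finite L] [IsCyclic L] (A B : Subgroup L)
    (h : Nat.card A = Nat.card B) : A = B := by
  classical
  cases nonempty_fintype L
  have key : ∀ C : Subgroup L, (C : Set L) = {a : L | a ^ Nat.card C = 1} := by
    intro C
    apply Set.eq_of_subset_of_ncard_le
    · intro a ha
      have : (⟨a, ha⟩ : C) ^ Nat.card C = 1 := pow_card_eq_one'
      exact congrArg Subtype.val this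
    · have h1 := IsCyclic.card_pow_eq_one_le (α := L) (n := Nat.card C) Nat.card_pos
      have h2 : ({a : L | a ^ Nat.card C = 1} : Set L).ncard =
          (Finset.univ.filter (fun a : L => a ^ Nat.card C = 1)).card := by
        rw [← Set.ncard_coe_finset]
        congr 1
        ext a
        simp
      rw [h2]
      have h3 : (C : Set L).ncard = Nat.card C := rfl
      rw [h3]
      exact h1
    · exact Set.toFinite _
  apply SetLike.coe_injective
  rw [key A, key B, h]

theorem eq_of_card_eq_of_le_isCyclic {G : Type*} [Group G] [Finite G] (H A B : Subgroup G)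
    [IsCyclic H] (hA : A ≤ H) (hB : B ≤ H) (h : Nat.card A = Nat.card B) : A = B := by
  have h1 : A.subgroupOf H = B.subgroupOf H := by
    apply eq_of_card_eq_of_isCyclic
    rw [Nat.card_congr (Subgroup.subgroupOfEquivOfLe hA).toEquiv,
      Nat.card_congr (Subgroup.subgroupOfEquivOfLe hB).toEquiv, h]
  rw [Subgroup.subgroupOf_inj, inf_eq_left.mpr hA, inf_eq_left.mpr hB] at h1
  exact h1

theorem isCyclic_of_unique_subgroup {G : Type*} [Group G] [Finite G] (p m s : ℕ) (hp : p.Prime)
    (hG : Nat.card G = p ^ m) (hs : 1 ≤ s) (hsm : s < m) (h2 : p ≠ 2 ∨ 2 ≤ s)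
    (huniq : ∀ H K : Subgroup G, Nat.card H = p ^ s → Nat.card K = p ^ s → H = K) :
    IsCyclic G := by
  classical
  haveI : Fact p.Prime := ⟨hp⟩
  have hpG : IsPGroup p G := IsPGroup.of_card hG
  obtain ⟨H, hH⟩ := Sylow.exists_subgroup_card_pow_prime (G := G) p (n := s)
    (by rw [hG]; exact pow_dvd_pow p hsm.le)
  -- every subgroup of order at most p^s lies in H
  have hle : ∀ (j : ℕ) (A : Subgroup G), j ≤ s → Nat.card A = p ^ j → A ≤ H := by
    intro j A hj hA
    obtain ⟨K, hK, hAK⟩ := Sylow.exists_subgroup_card_pow_prime_le p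
      (by rw [hG]; exact pow_dvd_pow p hsm.le) A hA hj
    rw [← huniq K H hK hH]
    exact hAK
  obtain ⟨L, hL, hHL⟩ := Sylow.exists_subgroup_card_pow_succ (G := G) (p := p) (n := s)
    (by rw [hG]; exact pow_dvd_pow p hsm) hH
  have hne : H ≠ L := by
    intro h
    rw [h, hL] at hH
    exact absurd (Nat.pow_right_injective hp.two_le hH) (by omega)
  obtain ⟨x, hxL, hxH⟩ := SetLike.exists_of_lt (lt_of_le_of_ne hHL hne)
  have hzL : Subgroup.zpowers x = L := by
    have h1 : Subgroup.zpowers x ≤ L := Subgroup.zpowers_le.mpr hxL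
    obtain ⟨j, hj⟩ := (hpG.to_subgroup (Subgroup.zpowers x)).exists_card_eq
    have h3 : Nat.card (Subgroup.zpowers x) ∣ Nat.card L := Subgroup.card_dvd_of_le h1
    rw [hj, hL] at h3
    have h4 : j ≤ s + 1 := (Nat.pow_dvd_pow_iff_le_right hp.one_lt).mp h3
    rcases Nat.lt_or_ge j (s + 1) with h5 | h5
    · exfalso
      exact hxH (hle j _ (by omega) hj (Subgroup.mem_zpowers x))
    · have h6 : j = s + 1 := le_antisymm h4 h5
      apply Subgroup.eq_of_le_of_card_ge h1
      rw [hj, hL, h6]
  haveI hLc : IsCyclic L := by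
    rw [← hzL]
    infer_instance
  haveI hHc : IsCyclic H := Subgroup.isCyclic_of_le hHL
  have huniq' : ∀ (j : ℕ) (A B : Subgroup G), j ≤ s → Nat.card A = p ^ j → Nat.card B = p ^ j →
      A = B := by
    intro j A B hj hA hB
    exact eq_of_card_eq_of_le_isCyclic H A B (hle j A hj hA) (hle j B hj hB) (hA.trans hB.symm)
  rcases Cfsg.Agent.S0016.result p hpG (fun A B hA hB => huniq' 1 A B hs (by rw [hA, pow_one])
    (by rw [hB, pow_one])) with h | ⟨hp2, n, ⟨e⟩⟩
  · exact h
  · subst hp2
    have hs2 : 2 ≤ s := by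
      rcases h2 with h | h
      · exact absurd rfl h
      · exact h
    rcases Nat.eq_zero_or_pos n with hn | hn
    · subst hn
      haveI := QuaternionGroup.quaternionGroup_one_isCyclic
      exact isCyclic_of_surjective e.symm e.symm.surjective
    · exfalso
      haveI : NeZero (2 ^ n) := ⟨pow_ne_zero _ (by norm_num)⟩
      let u : G := e.symm (QuaternionGroup.xa 0)
      let v : G := e.symm (QuaternionGroup.xa 1)
      have hu : orderOf u = 4 := by
        rw [MulEquiv.orderOf_eq, QuaternionGroup.orderOf_xa]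
      have hv : orderOf v = 4 := by
        rw [MulEquiv.orderOf_eq, QuaternionGroup.orderOf_xa]
      have heq := huniq' 2 (Subgroup.zpowers u) (Subgroup.zpowers v) hs2
        (by rw [Nat.card_zpowers, hu]; norm_num) (by rw [Nat.card_zpowers, hv]; norm_num)
      have hvu : v ∈ Subgroup.zpowers u := by rw [heq]; exact Subgroup.mem_zpowers v
      obtain ⟨k, hk⟩ := (mem_zpowers_iff_mem_range_orderOf (x := u) (y := v)).mp hvu |> Finset.mem_image.mp
      rw [hu] at hk
      have hk1 : k < 4 := Finset.mem_range.mp hk.1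
      have hk2 : (QuaternionGroup.xa 0 : QuaternionGroup (2 ^ n)) ^ k = QuaternionGroup.xa 1 := by
        have := congrArg e hk.2
        rw [map_pow] at this
        simpa [u, v] using this
      have h2n : (2 : ℕ) ≤ 2 ^ n := by
        calc 2 = 2 ^ 1 := by norm_num
          _ ≤ 2 ^ n := Nat.pow_le_pow_right (by norm_num) hn
      haveI : Fact (1 < 2 * 2 ^ n) := ⟨by omega⟩
      have hne1 : (1 : ZMod (2 * 2 ^ n)) ≠ 0 := one_ne_zero
      have hne2 : ((2 ^ n : ℕ) : ZMod (2 * 2 ^ n)) ≠ 1 := by
        intro h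
        have h3 : ((2 ^ n : ℕ) : ZMod (2 * 2 ^ n)) = ((1 : ℕ) : ZMod (2 * 2 ^ n)) := by
          rw [h]; simp
        rw [ZMod.natCast_eq_natCast_iff'] at h3
        rw [Nat.mod_eq_of_lt (by omega), Nat.mod_eq_of_lt (by omega)] at h3
        omega
      interval_cases k
      · rw [pow_zero, QuaternionGroup.one_def] at hk2
        cases hk2
      · simp at hk2
      · rw [QuaternionGroup.xa_sq] at hk2
        simp at hk2
      · have h3 : (QuaternionGroup.xa 0 : QuaternionGroup (2 ^ n)) ^ 3 =
            QuaternionGroup.xa 0 ^ 2 * QuaternionGroup.xa 0 := pow_succ _ 2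
        rw [h3, QuaternionGroup.xa_sq, QuaternionGroup.a_mul_xa] at hk2
        simp at hk2
        apply hne2
        have h4 : (2 : ZMod (2 * 2 ^ n)) * ((2 ^ n : ℕ) : ZMod (2 * 2 ^ n)) = 0 := by
          have : ((2 * 2 ^ n : ℕ) : ZMod (2 * 2 ^ n)) = 0 := ZMod.natCast_self _
          push_cast at this ⊢
          exact this
        push_cast at h4 ⊢
        linear_combination h4 + hk2

end Cfsg.Agent.Lib.Helper21
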